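import Cfsg.Agent.ConjAll.Pair
import Cfsg.Agent.S0885
import Mathlib.GroupTheory.FixedPointFree

/-!
The blocks, the sets of points fixed by the centraliser of a pair, have `q + 1` points.
-/

set_option autoImplicit false
set_option linter.style.haveILetI false
set_option linter.unusedSectionVars false

namespace Cfsg.Agent.ConjAll

open Subgroup MulAction

variable {G : Type*} [Group G] [Finite G] (C : Ctx G)

/-- The normaliser of the centraliser of a pair. -/
abbrev MP (a b : Sylow 2 G) : Subgroup G := normalizer ((EP a b : Subgroup G) : Set G)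

/-- The block of a pair. -/
abbrev Blk (a b : Sylow 2 G) : Type _ := {z : Sylow 2 G // EP a b ≤ NS z}

include C

omit C in
theorem blk_maps {a b : Sylow 2 G} {g : G} (hg : g ∈ MP a b) {z : Sylow 2 G}
    (hz : EP a b ≤ NS z) : EP a b ≤ NS (g • z) := by
  intro x hx
  have h1 : g⁻¹ * x * g ∈ EP a b := (mem_normalizer_iff''.1 hg x).1 hx
  have h2 := conj_mem_NS g (hz h1)
  rwa [show g * (g⁻¹ * x * g) * g⁻¹ = x by group] at h2

instance blkAction (a b : Sylow 2 G) : MulAction (MP a b) (Blk a b) where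
  smul g z := ⟨(g : G) • z.1, blk_maps g.2 z.2⟩
  one_smul z := Subtype.ext (one_smul G z.1)
  mul_smul g h z := Subtype.ext (mul_smul (g : G) h z.1)

/-- Splitting off the element of order `q - 1`. -/
theorem Ctx.decomp_NS {c : Sylow 2 G} {x : G} (hx : x ∈ NS c) (hnm : x ∉ CS c) {g : G}
    (hg : g ∈ NS c) : ∃ i : ℕ, g * (x ^ i)⁻¹ ∈ CS c := by
  haveI hn : ((CS c).subgroupOf (NS c)).Normal :=
    ⟨fun x hx y => by
      rw [mem_subgroupOf] at hx ⊢
      push_cast
      exact C.CS_normal y.2 hx⟩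
  have hi : Nat.card (NS c ⧸ (CS c).subgroupOf (NS c)) = C.q - 1 := by
    have h1 := Subgroup.card_mul_index ((CS c).subgroupOf (NS c))
    rw [Nat.card_congr (subgroupOfEquivOfLe (C.CS_le_NS c)).toEquiv, C.hidx c, mul_comm] at h1
    exact mul_right_cancel₀ Nat.card_pos.ne' h1
  haveI : Fact (C.q - 1).Prime := ⟨C.m_prime⟩
  have hgen : (QuotientGroup.mk (⟨g, hg⟩ : NS c) : NS c ⧸ (CS c).subgroupOf (NS c)) ∈
      Submonoid.powers (QuotientGroup.mk (⟨x, hx⟩ : NS c)) := by
    refine mem_powers_of_prime_card hi ?_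
    rw [Ne, QuotientGroup.eq_one_iff, mem_subgroupOf]
    exact hnm
  obtain ⟨i, hi'⟩ := hgen
  refine ⟨i, ?_⟩
  change QuotientGroup.mk (⟨x, hx⟩ : NS c) ^ i = _ at hi'
  rw [← QuotientGroup.mk_pow, QuotientGroup.eq, mem_subgroupOf] at hi'
  simpa [mul_assoc] using C.CS_normal (pow_mem hx i) hi'

theorem Ctx.card_split {c : Sylow 2 G} {x : G} (ho : orderOf x = C.q - 1) (hnm : x ∉ CS c)
    (K : Subgroup G) (hK : K ≤ NS c) (hxK : x ∈ K) :
    Nat.card K = (C.q - 1) * Nat.card ↥(K ⊓ CS c) := by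
  let f : ↥(K ⊓ CS c) × Fin (C.q - 1) → K := fun p =>
    ⟨(p.1 : G) * x ^ (p.2 : ℕ), mul_mem p.1.2.1 (pow_mem hxK _)⟩
  have hf : Function.Bijective f := by
    constructor
    · rintro ⟨e, i⟩ ⟨e', j⟩ h
      have h' : (e : G) * x ^ (i : ℕ) = (e' : G) * x ^ (j : ℕ) := congrArg Subtype.val h
      have hm : (e' : G)⁻¹ * e = x ^ (j : ℕ) * (x ^ (i : ℕ))⁻¹ := by
        rw [eq_mul_inv_iff_mul_eq, mul_assoc, h', inv_mul_cancel_left]
      have h1 : ((e' : G)⁻¹ * e) ^ (C.q - 1) = 1 := by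
        have hxm : x ^ (C.q - 1) = 1 := by rw [← ho]; exact pow_orderOf_eq_one x
        rw [hm, (((Commute.refl x).pow_pow _ _).inv_right).mul_pow, inv_pow, ← pow_mul, ← pow_mul,
          mul_comm (j : ℕ), mul_comm (i : ℕ), pow_mul, pow_mul, hxm]
        simp
      have h2 : (e' : G)⁻¹ * e = 1 := by
        refine orderOf_eq_one_iff.1 (Nat.Coprime.eq_one_of_dvd ?_ (orderOf_dvd_of_pow_eq_one h1))
        exact (C.coprime_of_mem_CS (mul_mem (inv_mem e'.2.2) e.2.2)).symm
      have he : (e : G) = e' := (inv_mul_eq_one.1 h2).symm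
      rw [he] at h'
      have hij := mul_left_cancel h'
      rw [pow_inj_mod, ho, Nat.mod_eq_of_lt i.2, Nat.mod_eq_of_lt j.2] at hij
      exact Prod.ext (Subtype.ext he) (Fin.ext hij)
    · rintro ⟨g, hg⟩
      obtain ⟨i, hi⟩ := C.decomp_NS (hK hxK) hnm (hK hg)
      refine ⟨⟨⟨g * (x ^ i)⁻¹, Subgroup.mul_mem K hg (Subgroup.inv_mem K (Subgroup.pow_mem K hxK i)), hi⟩,
        ⟨i % (C.q - 1), Nat.mod_lt _ C.m_prime.pos⟩⟩, Subtype.ext ?_⟩
      show g * (x ^ i)⁻¹ * x ^ (i % (C.q - 1)) = g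
      rw [← ho, pow_mod_orderOf, inv_mul_cancel_right]
  rw [← Nat.card_eq_of_bijective f hf, Nat.card_prod, Nat.card_fin, mul_comm]

theorem Ctx.sylow_le_MP {a b c : Sylow 2 G} (hc : EP a b ≤ CS c) : (c : Subgroup G) ≤ MP a b :=
  fun t ht => centralizer_le_normalizer _ (mem_centralizer_iff.2 fun e he =>
    (mem_centralizer_iff.1 (hc he) t ht).symm)

theorem Ctx.blk_eq {a b z z' : Sylow 2 G} (hab : a ≠ b) (hne : z ≠ z') (hz : EP a b ≤ NS z)
    (hz' : EP a b ≤ NS z') : EP z z' = EP a b :=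
  (C.EP_eq_of_fix hab hne hz hz').symm

theorem Ctx.mem_MP_of_smul {a b z z' w w' : Sylow 2 G} {g : G} (hz : EP z z' = EP a b)
    (hw : EP w w' = EP a b) (h : g • z = w) (h' : g • z' = w') : g ∈ MP a b := by
  refine mem_normalizer_iff.2 fun x => ⟨fun hx => ?_, fun hx => ?_⟩
  · rw [← hw, ← h, ← h']
    rw [← hz] at hx
    exact ⟨conj_mem_CS g hx.1, conj_mem_CS g hx.2⟩
  · rw [← hz, ← inv_smul_smul g z, ← inv_smul_smul g z', h, h']
    rw [← hw] at hx
    have h1 := conj_mem_CS g⁻¹ hx.1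
    have h2 := conj_mem_CS g⁻¹ hx.2
    rw [show g⁻¹ * (g * x * g⁻¹) * g⁻¹⁻¹ = x by group] at h1 h2
    exact ⟨h1, h2⟩

theorem Ctx.DP_le_MP (a b : Sylow 2 G) : DP a b ≤ MP a b := fun _ hg =>
  C.mem_MP_of_smul rfl rfl (smul_eq_iff.2 hg.1) (smul_eq_iff.2 hg.2)

theorem Ctx.exists_third {a b : Sylow 2 G} (hab : a ≠ b) :
    ∃ c : Sylow 2 G, c ≠ a ∧ c ≠ b ∧ EP a b ≤ CS c := by
  obtain ⟨u, hu, hu1, huc⟩ := C.exists_swapper hab
  obtain ⟨c, hc⟩ := C.exists_centre hu
  refine ⟨c, ?_, ?_, fun g hg => ?_⟩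
  · rintro rfl
    exact hab ((smul_eq_iff.2 (C.CS_le_NS _ (C.le_CS _ hc))).symm.trans huc)
  · rintro rfl
    exact hab ((C.swap_smul hu huc).symm.trans (smul_eq_iff.2 (C.CS_le_NS _ (C.le_CS _ hc))))
  · rw [← C.hC c u hc hu1]
    exact mem_centralizer_singleton_iff.2 (C.swapper_commute hab hu hu1 huc hg).symm

/-- The basic numerical facts on blocks. -/
theorem Ctx.block {a b : Sylow 2 G} (hab : a ≠ b) :
    Nat.card (Blk a b) = C.q + 1 ∧ Nat.card ↥(MP a b ⊓ CS a) = C.q * Nat.card (EP a b) ∧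
    Nat.card (MP a b) = (C.q + 1) * (C.q * ((C.q - 1) * Nat.card (EP a b))) := by
  classical
  haveI := Fintype.ofFinite (Blk a b)
  set A : Blk a b := ⟨a, le_trans (C.EP_le_DP a b) inf_le_left⟩ with hA
  set B : Blk a b := ⟨b, le_trans (C.EP_le_DP a b) inf_le_right⟩ with hB
  have hAB : A ≠ B := fun h => hab (congrArg Subtype.val h)
  obtain ⟨c, hca, hcb, hEc⟩ := C.exists_third hab
  set Z : Blk a b := ⟨c, hEc.trans (C.CS_le_NS c)⟩ with hZ
  obtain ⟨x, hx, ho, hnm, hcomm, hdec⟩ := C.x_spec hab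
  have hxM : x ∈ MP a b := C.DP_le_MP a b hx
  let f : MP a b →* Equiv.Perm (Blk a b) := MulAction.toPermHom _ _
  have happ : ∀ (g : MP a b) (z : Blk a b), (f g z).1 = (g : G) • z.1 := fun g z => rfl
  have h2tr : ∀ {z z' w w' : Blk a b}, z ≠ z' → w ≠ w' →
      ∃ g : MP a b, f g z = w ∧ f g z' = w' := by
    intro z z' w w' hzz hww
    have h1 : z.1 ≠ z'.1 := fun h => hzz (Subtype.ext h)
    have h2 : w.1 ≠ w'.1 := fun h => hww (Subtype.ext h)
    obtain ⟨g, hg, hg'⟩ := C.exists_smul_pair h1 h2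
    exact ⟨⟨g, C.mem_MP_of_smul (C.blk_eq hab h1 z.2 z'.2) (C.blk_eq hab h2 w.2 w'.2) hg hg'⟩,
      Subtype.ext hg, Subtype.ext hg'⟩
  have hker : ∀ g : MP a b, f g = 1 ↔ (g : G) ∈ EP a b := by
    intro g
    constructor
    · intro h
      have hfix : ∀ z : Blk a b, (g : G) ∈ NS z.1 := fun z => smul_eq_iff.1 (by
        rw [← happ, h]; rfl)
      by_contra hgE
      rcases C.fix_eq_two hab ⟨hfix A, hfix B⟩ hgE (hfix Z) with h | h
      · exact hca h
      · exact hcb h
    · intro h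
      ext z : 1
      exact Subtype.ext ((happ g z).trans (smul_eq_iff.2 (z.2 h)))
  -- the stabiliser of two points
  have hthree : ∀ g : MP a b, ∀ z z' z'' : Blk a b, z ≠ z' → z' ≠ z'' → z ≠ z'' →
      f g z = z → f g z' = z' → f g z'' = z'' → f g = 1 := by
    intro g z z' z'' h1 h2 h3 e1 e2 e3
    rw [hker, ← C.blk_eq hab (fun h => h1 (Subtype.ext h)) z.2 z'.2]
    by_contra hgE
    have e : ∀ w : Blk a b, f g w = w → (g : G) ∈ NS w.1 := fun w hw =>
      smul_eq_iff.1 (by rw [← happ, hw])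
    rcases C.fix_eq_two (fun h => h1 (Subtype.ext h)) ⟨e z e1, e z' e2⟩ hgE (e z'' e3) with h | h
    · exact h3 (Subtype.ext h.symm)
    · exact h2 (Subtype.ext h.symm)
  -- the kernel of the point stabiliser
  set U : Subgroup G := MP a b ⊓ CS a with hU
  have hUmap : ∀ u : U, f ⟨u, u.2.1⟩ A = A := fun u =>
    Subtype.ext (smul_eq_iff.2 (C.CS_le_NS a u.2.2))
  let ψ : U → {z : Blk a b // z ≠ A} := fun u =>
    ⟨f ⟨u, u.2.1⟩ B, fun h => hAB ((f ⟨u, u.2.1⟩).injective ((hUmap u).trans h.symm))⟩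
  have hψs : Function.Surjective ψ := by
    rintro ⟨z, hz⟩
    obtain ⟨g, hgA, hgB⟩ := h2tr hAB (Ne.symm hz)
    have hgN : (g : G) ∈ NS a := smul_eq_iff.1 (congrArg Subtype.val hgA)
    obtain ⟨i, hi⟩ := C.decomp_NS hx.1 hnm hgN
    have hm : (g : G) * (x ^ i)⁻¹ ∈ MP a b := mul_mem g.2 (inv_mem (pow_mem hxM i))
    refine ⟨⟨_, hm, hi⟩, Subtype.ext (Subtype.ext ?_)⟩
    show ((g : G) * (x ^ i)⁻¹) • b = z.1
    rw [mul_smul, smul_eq_iff.2 (inv_mem (pow_mem hx.2 i))]
    exact congrArg Subtype.val hgB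
  have hψf : ∀ z, Nat.card {u : U // ψ u = z} = Nat.card (EP a b) := by
    intro z
    obtain ⟨u₀, rfl⟩ := hψs z
    have key : ∀ u : U, ψ u = ψ u₀ → (u₀ : G)⁻¹ * u ∈ EP a b := fun u hu => by
      have h := congrArg (fun w => w.1.1) hu
      change (u : G) • b = (u₀ : G) • b at h
      refine C.mem_EP ⟨Subgroup.mul_mem (NS a) (Subgroup.inv_mem _ (C.CS_le_NS a u₀.2.2)) (C.CS_le_NS a u.2.2),
        smul_eq_iff.1 ?_⟩ (mul_mem (inv_mem u₀.2.2) u.2.2)
      rw [mul_smul, h, inv_smul_smul]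
    have hEM : EP a b ≤ MP a b := le_normalizer
    refine Nat.card_congr
      { toFun := fun u => ⟨(u₀ : G)⁻¹ * u.1, key u.1 u.2⟩
        invFun := fun e => ⟨⟨(u₀ : G) * e, mul_mem u₀.2.1 (hEM e.2), mul_mem u₀.2.2 e.2.1⟩,
          Subtype.ext (Subtype.ext (by
            show ((u₀ : G) * e) • b = (u₀ : G) • b
            rw [mul_smul, smul_eq_iff.2 (C.CS_le_NS b e.2.2)]))⟩
        left_inv := fun u => Subtype.ext (Subtype.ext (mul_inv_cancel_left _ _))
        right_inv := fun e => Subtype.ext (inv_mul_cancel_left _ _) }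
  have hUcard : Nat.card U = (Nat.card (Blk a b) - 1) * Nat.card (EP a b) := by
    rw [← Nat.card_congr (Equiv.sigmaFiberEquiv ψ), Nat.card_sigma, ← card_ne A]
    simp only [hψf, Finset.sum_const, Finset.card_univ, smul_eq_mul, Nat.card_eq_fintype_card]
  -- parity
  have hEodd : Odd (Nat.card (EP a b)) :=
    (C.odd_card_DP hab).of_dvd_nat (Subgroup.card_dvd_of_le (C.EP_le_DP a b))
  have hq2 : C.q ∣ Nat.card (Blk a b) - 1 := by
    have h1 : (a : Subgroup G) ≤ U := le_inf (C.sylow_le_MP inf_le_left) (C.le_CS a)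
    have h2 := Subgroup.card_dvd_of_le h1
    rw [C.hcard a, hUcard] at h2
    refine (Nat.Coprime.dvd_of_dvd_mul_right ?_ h2)
    rcases C.hq with h | h <;> rw [h]
    · exact (Nat.Coprime.pow_left 3 hEodd.coprime_two_left : Nat.Coprime (2 ^ 3) _)
    · exact (Nat.Coprime.pow_left 5 hEodd.coprime_two_left : Nat.Coprime (2 ^ 5) _)
  obtain ⟨d, hd⟩ := hq2
  have hdodd : Odd d := by
    rw [← Nat.not_even_iff_odd]
    intro he
    haveI : Fact (Nat.Prime 2) := ⟨Nat.prime_two⟩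
    refine a.not_dvd_index ?_
    have h1 : C.q * d ∣ Nat.card G := by
      rw [← hd]
      exact (Dvd.intro _ hUcard.symm).trans (Subgroup.card_subgroup_dvd_card U)
    rw [← Subgroup.card_mul_index (a : Subgroup G), C.hcard a] at h1
    exact (even_iff_two_dvd.1 he).trans
      (Nat.dvd_of_mul_dvd_mul_left (by have := C.q_pos; omega) h1)
  have hφ3 : 3 ≤ Nat.card (Blk a b) := by
    rcases C.hq with h | h <;> rw [h] at hd <;> rcases d with _ | d <;>
      first | (simp at hdodd) | omega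
  -- the Zassenhaus group
  set Q : Subgroup (Equiv.Perm (Blk a b)) := f.range with hQ
  have hZ : Cfsg.IsZassenhausGroup Q (Blk a b) := by
    refine ⟨inferInstance, ?_, ?_, ?_, ?_⟩
    · rw [MulAction.is_two_pretransitive_iff]
      intro z z' w w' h1 h2
      obtain ⟨g, hg, hg'⟩ := h2tr h1 h2
      exact ⟨⟨f g, g, rfl⟩, hg, hg'⟩
    · rintro ⟨_, g, rfl⟩ z z' z'' h1 h2 h3 e1 e2 e3
      exact Subtype.ext (hthree g z z' z'' h1 h2 h3 e1 e2 e3)
    · refine ⟨⟨f ⟨x, hxM⟩, _, rfl⟩, fun h => hnm ?_, A, B, hAB, Subtype.ext (smul_eq_iff.2 hx.1),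
        Subtype.ext (smul_eq_iff.2 hx.2)⟩
      exact ((hker ⟨x, hxM⟩).1 (congrArg Subtype.val h)).1
    · intro N hN htrans
      by_contra hcon
      push Not at hcon
      haveI := htrans
      have hreg : ∀ (n : N) (z : Blk a b), n • z = z → n = 1 := fun n z h =>
        Subgroup.mem_bot.1 (hcon z ▸ (MulAction.mem_stabilizer_iff.2 h))
      have hinvert : ∀ t : G, t ∈ a → t ≠ 1 → ∀ n : N,
          ∃ T : Q, (T : Equiv.Perm (Blk a b)) A = A ∧ (T * (n : Q) * T⁻¹ = (n : Q)⁻¹) ∧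
            ∀ h : t ∈ MP a b, (T : Equiv.Perm (Blk a b)) = f ⟨t, h⟩ := by
        intro t hta ht1 n
        have htM : t ∈ MP a b := C.sylow_le_MP (a := a) (b := b) inf_le_left hta
        set T : Q := ⟨f ⟨t, htM⟩, _, rfl⟩ with hT
        have hTA : T • A = A := Subtype.ext (smul_eq_iff.2 (C.CS_le_NS a (C.le_CS a hta)))
        have hT2 : T * T = 1 := Subtype.ext (by
          show f ⟨t, htM⟩ * f ⟨t, htM⟩ = 1
          rw [← map_mul, show (⟨t, htM⟩ : MP a b) * ⟨t, htM⟩ = 1 from Subtype.ext (C.hel a t hta),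
            map_one])
        let φ : N →* N :=
          { toFun := fun k => ⟨T * k * T⁻¹, hN.conj_mem _ k.2 T⟩
            map_one' := Subtype.ext (by simp)
            map_mul' := fun k l => Subtype.ext (by simp [mul_assoc]) }
        have hfp : MonoidHom.FixedPointFree φ := by
          intro k hk
          have hk' : T * (k : Q) * T⁻¹ = k := congrArg Subtype.val hk
          refine hreg k A ?_
          by_contra hne
          have h1 : T • ((k : Q) • A) = (k : Q) • A := by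
            conv_rhs => rw [← hk', mul_smul, mul_smul, inv_smul_eq_iff.2 hTA.symm]
          have h2 := C.eq_of_fix hta ht1 (congrArg Subtype.val h1)
          exact hne (Subtype.ext h2)
        have hinv : Function.Involutive φ := fun k => Subtype.ext (by
          show T * (T * (k : Q) * T⁻¹) * T⁻¹ = k
          rw [show T⁻¹ = T from inv_eq_of_mul_eq_one_left hT2]
          calc T * (T * (k : Q) * T) * T = (T * T) * k * (T * T) := by group
            _ = k := by rw [hT2, one_mul, mul_one])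
        refine ⟨T, hTA, ?_, fun _ => rfl⟩
        exact congrArg Subtype.val (congrFun (hfp.coe_eq_inv_of_involutive hinv) n)
      -- two involutions of `a`
      obtain ⟨⟨s, hs⟩, hs1⟩ : ∃ s : (a : Subgroup G), s ≠ 1 := by
        haveI : Nontrivial (a : Subgroup G) := Finite.one_lt_card_iff_nontrivial.1 (by
          rw [C.hcard a]; have := C.q_pos; omega)
        exact exists_ne 1
      have hs1' : s ≠ 1 := fun h => hs1 (Subtype.ext h)
      obtain ⟨r, hr, hr1, hrs⟩ : ∃ r ∈ a, r ≠ 1 ∧ r ≠ s := by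
        by_contra hcon2
        push Not at hcon2
        have hle : Nat.card (a : Subgroup G) ≤ Nat.card (Bool) := by
          refine Nat.card_le_card_of_injective (fun r : (a : Subgroup G) => decide ((r : G) = 1))
            fun r r' h => ?_
          have h' : ((r : G) = 1) ↔ ((r' : G) = 1) := decide_eq_decide.1 h
          by_cases hr : (r : G) = 1
          · exact Subtype.ext (hr.trans (h'.1 hr).symm)
          · exact Subtype.ext ((hcon2 r r.2 hr).trans (hcon2 r' r'.2 (mt h'.2 hr)).symm)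
        rw [C.hcard a, Nat.card_eq_fintype_card, Fintype.card_bool] at hle
        rcases C.hq with h | h <;> omega
      have hsr : s * r ≠ 1 := fun h => hrs (by
        calc r = s * (s * r) := by rw [← mul_assoc, C.hel a s hs, one_mul]
          _ = s := by rw [h, mul_one])
      have hM : ∀ {t : G}, t ∈ a → t ∈ MP a b := fun ht => C.sylow_le_MP inf_le_left ht
      obtain ⟨n, hn⟩ : ∃ n : N, n • A = B := MulAction.exists_smul_eq N A B
      obtain ⟨T1, -, i1, f1⟩ := hinvert s hs hs1' n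
      obtain ⟨T2, -, i2, f2⟩ := hinvert r hr hr1 n
      obtain ⟨T3, h3A, i3, f3⟩ := hinvert (s * r) (mul_mem hs hr) hsr n
      have e3 : T3 = T1 * T2 := Subtype.ext (by
        show (T3 : Equiv.Perm (Blk a b)) = (T1 : Equiv.Perm (Blk a b)) * T2
        rw [f3 (hM (mul_mem hs hr)), f1 (hM hs), f2 (hM hr), ← map_mul]
        rfl)
      have hfix : T3 * (n : Q) * T3⁻¹ = n := by
        rw [e3, mul_inv_rev]
        calc T1 * T2 * (n : Q) * (T2⁻¹ * T1⁻¹) = T1 * (T2 * (n : Q) * T2⁻¹) * T1⁻¹ := by group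
          _ = (T1 * (n : Q) * T1⁻¹)⁻¹ := by rw [i2]; group
          _ = n := by rw [i1, inv_inv]
      have hTA : T3 • A = A := h3A
      have hfixB : T3 • B = B := by
        rw [← hn]
        show T3 • ((n : Q) • A) = (n : Q) • A
        conv_rhs => rw [← hfix, mul_smul, mul_smul, inv_smul_eq_iff.2 hTA.symm]
      have h4 := congrArg Subtype.val hfixB
      change ((T3 : Equiv.Perm (Blk a b)) B).1 = b at h4
      rw [f3 (hM (mul_mem hs hr)), happ] at h4
      exact hab (C.eq_of_fix (mul_mem hs hr) hsr h4).symm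
  -- the orders needed
  have hpair : Nat.card ↥(MulAction.stabilizer Q A ⊓ MulAction.stabilizer Q B : Subgroup Q) =
      C.q - 1 := by
    let ψ' : DP a b → ↥(MulAction.stabilizer Q A ⊓ MulAction.stabilizer Q B : Subgroup Q) :=
      fun g => ⟨⟨f ⟨g, C.DP_le_MP a b g.2⟩, _, rfl⟩, Subtype.ext (smul_eq_iff.2 g.2.1),
        Subtype.ext (smul_eq_iff.2 g.2.2)⟩
    have hs : Function.Surjective ψ' := by
      rintro ⟨⟨_, g, rfl⟩, hgA, hgB⟩
      exact ⟨⟨g, smul_eq_iff.1 (congrArg Subtype.val hgA), smul_eq_iff.1 (congrArg Subtype.val hgB)⟩,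
        rfl⟩
    have hfib : ∀ z, Nat.card {g // ψ' g = z} = Nat.card (EP a b) := by
      intro z
      obtain ⟨g₀, rfl⟩ := hs z
      have key : ∀ g : DP a b, ψ' g = ψ' g₀ → (g₀ : G)⁻¹ * g ∈ EP a b := fun g hg => by
        have h := congrArg (fun w => (w.1 : Equiv.Perm (Blk a b))) hg
        exact (hker (⟨g₀, C.DP_le_MP a b g₀.2⟩⁻¹ * ⟨g, C.DP_le_MP a b g.2⟩)).1 (by
          rw [map_mul, map_inv, show f _ = f _ from h, inv_mul_cancel])
      refine Nat.card_congr
        { toFun := fun g => ⟨(g₀ : G)⁻¹ * g.1, key g.1 g.2⟩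
          invFun := fun e => ⟨⟨(g₀ : G) * e, mul_mem g₀.2 (C.EP_le_DP a b e.2)⟩,
            Subtype.ext (Subtype.ext (by
              show f _ = f _
              rw [show (⟨(g₀ : G) * e, _⟩ : MP a b) =
                ⟨g₀, C.DP_le_MP a b g₀.2⟩ * ⟨e, le_normalizer e.2⟩ from rfl, map_mul,
                (hker ⟨e, le_normalizer e.2⟩).2 e.2, mul_one]))⟩
          left_inv := fun g => Subtype.ext (Subtype.ext (mul_inv_cancel_left _ _))
          right_inv := fun e => Subtype.ext (inv_mul_cancel_left _ _) }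
    haveI := Fintype.ofFinite ↥(MulAction.stabilizer Q A ⊓ MulAction.stabilizer Q B : Subgroup Q)
    have h1 := C.card_DP hab
    rw [← Nat.card_congr (Equiv.sigmaFiberEquiv ψ'), Nat.card_sigma] at h1
    simp only [hfib, Finset.sum_const, Finset.card_univ, smul_eq_mul,
      ← Nat.card_eq_fintype_card] at h1
    exact mul_right_cancel₀ Nat.card_pos.ne' h1
  let g' : U →* Q := (f.rangeRestrict).comp (Subgroup.inclusion inf_le_left)
  have hkerU : Nat.card g'.ker = Nat.card (EP a b) := by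
    have hEM : EP a b ≤ MP a b := le_normalizer
    exact Nat.card_congr
      { toFun := fun u => ⟨(u.1 : G), (hker ⟨(u.1 : G), u.1.2.1⟩).1 (congrArg Subtype.val u.2)⟩
        invFun := fun e => ⟨⟨e, hEM e.2, e.2.1⟩, Subtype.ext ((hker ⟨e, hEM e.2⟩).2 e.2)⟩
        left_inv := fun u => rfl
        right_inv := fun e => rfl }
  have hHcard : Nat.card g'.range + 1 = Fintype.card (Blk a b) := by
    have h1 := Subgroup.card_mul_index g'.ker
    rw [Subgroup.index_ker, hkerU, hUcard, mul_comm] at h1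
    rw [mul_right_cancel₀ Nat.card_pos.ne' h1, ← Nat.card_eq_fintype_card]
    omega
  have hHA : g'.range ≤ MulAction.stabilizer Q A := by
    rintro _ ⟨u, rfl⟩
    exact hUmap u
  have hHfix : ∀ w ∈ g'.range, w ≠ 1 → ∀ z : Blk a b, w • z = z → z = A := by
    rintro _ ⟨u, rfl⟩ hne z hz
    by_contra hzA
    refine hne (Subtype.ext ((hker ⟨u, u.2.1⟩).2 ?_))
    have h1 : a ≠ z.1 := fun h => hzA (Subtype.ext h.symm)
    rw [← C.blk_eq hab h1 A.2 z.2]
    exact C.mem_EP ⟨C.CS_le_NS a u.2.2, smul_eq_iff.1 (congrArg Subtype.val hz)⟩ u.2.2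
  have hd1 : d = 1 := by
    rcases Cfsg.Agent.S0885.result hZ hAB (Nat.card (Blk a b) - 1) (C.q - 1)
      (by rw [← Nat.card_eq_fintype_card]; omega) hpair C.m_odd g'.range hHA hHcard hHfix with
      h | ⟨hp, -, -⟩
    · rw [hd] at h
      rcases d with _ | _ | d
      · simp at hdodd
      · rfl
      · exfalso
        have : C.q * 2 ≤ C.q * (d + 1 + 1) := Nat.mul_le_mul_left _ (by omega)
        have := C.q_pos
        omega
    · haveI : Fact (Nat.Prime 2) := ⟨Nat.prime_two⟩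
      obtain ⟨k, hk⟩ := IsPGroup.iff_card.1 hp
      rw [← Nat.card_eq_fintype_card] at hHcard
      have hdd : d ∣ 2 ^ k := Dvd.intro_left C.q (by omega)
      exact Nat.Coprime.eq_one_of_dvd (Nat.Coprime.pow_right k hdodd.coprime_two_right) hdd
  have hφ : Nat.card (Blk a b) = C.q + 1 := by rw [hd1, mul_one] at hd; omega
  have hU2 : Nat.card U = C.q * Nat.card (EP a b) := by rw [hUcard, hφ, Nat.add_sub_cancel]
  refine ⟨hφ, hU2, ?_⟩
  haveI : IsPretransitive (MP a b) (Blk a b) := ⟨fun z w => by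
    rcases eq_or_ne z w with rfl | hzw
    · exact ⟨1, one_smul _ _⟩
    · obtain ⟨g, hg, -⟩ := h2tr hzw hzw.symm
      exact ⟨g, hg⟩⟩
  have hst : Nat.card (MulAction.stabilizer (MP a b) A) = Nat.card ↥(MP a b ⊓ NS a) :=
    Nat.card_congr
      { toFun := fun g => ⟨(g.1 : G), g.1.2, smul_eq_iff.1 (congrArg Subtype.val g.2)⟩
        invFun := fun g => ⟨⟨g, g.2.1⟩, Subtype.ext (smul_eq_iff.2 g.2.2)⟩
        left_inv := fun g => rfl
        right_inv := fun g => rfl }
  have h5 := C.card_split ho hnm (MP a b ⊓ NS a) inf_le_right ⟨hxM, hx.1⟩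
  rw [show MP a b ⊓ NS a ⊓ CS a = U by
    rw [hU, inf_assoc, inf_eq_right.2 (C.CS_le_NS a)], hU2] at h5
  rw [← Subgroup.card_mul_index (MulAction.stabilizer (MP a b) A),
    MulAction.index_stabilizer_of_transitive, hφ, hst, h5]
  ring

end Cfsg.Agent.ConjAll
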