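import Mathlib
import Cfsg.Agent.PrimStruct.Derangement

/-!
Elementary counting and order lemmas used for groups with conjugate subgroups of equal order.
-/

set_option autoImplicit false
set_option linter.style.haveILetI false

namespace Cfsg.Agent.ConjAll

open MulAction

variable {G : Type*} [Group G]

/-- If every `c * (fix g - 1)` is at most `W g` then `c` times the number of derangements of a
transitive group is at most the sum of the `W g`. -/
theorem mul_card_derangement_le [Fintype G] {X : Type*} [MulAction G X] [Finite X] [Nonempty X]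
    [IsPretransitive G X] (c : ℕ) (W : G → ℕ)
    (h : ∀ g : G, c * (Nat.card (fixedBy X g) - 1) ≤ W g) :
    c * Nat.card {g : G // ∀ x : X, g • x ≠ x} ≤ ∑ g : G, W g := by
  classical
  have hs : ∑ g : G, Nat.card (fixedBy X g) = Nat.card G := by
    rw [PrimStruct.sum_card_fixedBy, PrimStruct.card_orbits_eq_one (G := G), one_mul]
  have hD : ∀ g : G, Nat.card (fixedBy X g) = 0 ↔ ∀ x : X, g • x ≠ x := by
    intro g
    constructor
    · intro h0 x hx
      haveI : Nonempty (fixedBy X g) := ⟨⟨x, hx⟩⟩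
      exact absurd h0 Nat.card_pos.ne'
    · intro hd
      haveI : IsEmpty (fixedBy X g) := ⟨fun x => hd x.1 x.2⟩
      exact Nat.card_of_isEmpty
  have e : ∀ g : G, Nat.card (fixedBy X g) + (if ∀ x : X, g • x ≠ x then 1 else 0)
      = (Nat.card (fixedBy X g) - 1) + 1 := by
    intro g
    split_ifs with hg
    · rw [(hD g).2 hg]
    · have : Nat.card (fixedBy X g) ≠ 0 := fun h0 => hg ((hD g).1 h0)
      omega
  have h1 := Finset.sum_congr (rfl : (Finset.univ : Finset G) = _) (fun g _ => e g)
  rw [Finset.sum_add_distrib, Finset.sum_add_distrib, hs, ← Finset.card_filter,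
    ← Fintype.card_subtype, Finset.sum_const, Finset.card_univ, ← Nat.card_eq_fintype_card,
    ← Nat.card_eq_fintype_card, smul_eq_mul, mul_one] at h1
  have h2 : Nat.card {g : G // ∀ x : X, g • x ≠ x} = ∑ g : G, (Nat.card (fixedBy X g) - 1) := by
    omega
  rw [h2, Finset.mul_sum]
  exact Finset.sum_le_sum fun g _ => h g

/-- Double counting in a finite product. -/
theorem sum_sum_comm_card {α β : Type*} [Fintype α] [Fintype β] (r : α → β → Prop) :
    ∑ a : α, Nat.card {b : β // r a b} = ∑ b : β, Nat.card {a : α // r a b} := by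
  classical
  simp only [Nat.card_eq_fintype_card, Fintype.card_subtype, Finset.card_filter]
  exact Finset.sum_comm

/-- A map all of whose fibres have at most `k` elements. -/
theorem card_le_mul {α β : Type*} [Finite α] [Finite β] (f : α → β) (k : ℕ)
    (h : ∀ b, Nat.card {a : α // f a = b} ≤ k) : Nat.card α ≤ k * Nat.card β := by
  classical
  haveI := Fintype.ofFinite β
  rw [← Nat.card_congr (Equiv.sigmaFiberEquiv f), Nat.card_sigma, Nat.card_eq_fintype_card,
    mul_comm]
  calc ∑ b, Nat.card {a : α // f a = b} ≤ ∑ _b : β, k := Finset.sum_le_sum fun b _ => h b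
    _ = Fintype.card β * k := by simp

theorem mul_card_le {α β : Type*} [Finite α] [Finite β] (f : α → β) (k : ℕ)
    (h : ∀ b, k ≤ Nat.card {a : α // f a = b}) : k * Nat.card β ≤ Nat.card α := by
  classical
  haveI := Fintype.ofFinite β
  rw [← Nat.card_congr (Equiv.sigmaFiberEquiv f), Nat.card_sigma, Nat.card_eq_fintype_card,
    mul_comm]
  calc Fintype.card β * k = ∑ _b : β, k := by simp
    _ ≤ _ := Finset.sum_le_sum fun b _ => h b

theorem commute_of_commute_sq {h f : G} (ho : Odd (orderOf h)) (hc : Commute (h ^ 2) f) :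
    Commute h f := by
  obtain ⟨j, hj⟩ := ho
  have : h = (h ^ 2) ^ (j + 1) := by
    rw [← pow_mul, show 2 * (j + 1) = orderOf h + 1 by omega, pow_succ, pow_orderOf_eq_one, one_mul]
  rw [this]
  exact hc.pow_left _

theorem eq_of_pow_eq_of_coprime {w w' : G} {n : ℕ} (hw : (orderOf w).Coprime n)
    (hw' : (orderOf w').Coprime n) (h : w ^ n = w' ^ n) : w = w' := by
  have h1 : n.Coprime (orderOf ((w, w') : G × G)) := by
    rw [Prod.orderOf]
    exact ((hw.mul_left hw').coprime_dvd_left (Nat.lcm_dvd_mul _ _)).symm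
  obtain ⟨j, hj⟩ := exists_pow_eq_self_of_coprime h1
  have h2 := congrArg Prod.fst hj
  have h3 := congrArg Prod.snd hj
  change (w ^ n) ^ j = w at h2
  change (w' ^ n) ^ j = w' at h3
  rw [← h2, h, h3]

/-- The odd part of an element of order `2^k * o` which inverts `x` still inverts `x`. -/
theorem conj_odd_pow {i x : G} (h : i * x * i⁻¹ = x⁻¹) {o : ℕ} (ho : Odd o) :
    i ^ o * x * (i ^ o)⁻¹ = x⁻¹ := by
  obtain ⟨j, rfl⟩ := ho
  have h2 : i ^ 2 * x * (i ^ 2)⁻¹ = x := by
    have : i * (i * x * i⁻¹) * i⁻¹ = i * x⁻¹ * i⁻¹ := by rw [h]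
    rw [pow_two, mul_inv_rev]
    calc i * i * x * (i⁻¹ * i⁻¹) = i * (i * x * i⁻¹) * i⁻¹ := by group
      _ = i * x⁻¹ * i⁻¹ := this
      _ = (i * x * i⁻¹)⁻¹ := by group
      _ = x := by rw [h, inv_inv]
  have hc : Commute (i ^ 2) x := by
    have := congrArg (· * i ^ 2) h2
    simpa [Commute, SemiconjBy, mul_assoc] using this
  have hc2 := (hc.pow_left j).eq
  rw [pow_succ', pow_mul]
  calc i * (i ^ 2) ^ j * x * (i * (i ^ 2) ^ j)⁻¹
      = i * ((i ^ 2) ^ j * x) * ((i ^ 2) ^ j)⁻¹ * i⁻¹ := by group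
    _ = i * x * i⁻¹ := by rw [hc2]; group
    _ = x⁻¹ := h

end Cfsg.Agent.ConjAll
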