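import Mathlib
import Cfsg.Agent.ConjAll.Count
import Cfsg.Agent.RankOne.Inverted

/-!
The local situation in the simple group: elementary abelian Sylow 2-subgroups of order 8 or 32
whose non-identity elements all have the same centraliser as the Sylow subgroup.
We study the conjugation action on the set of Sylow 2-subgroups.
-/

set_option autoImplicit false
set_option linter.style.haveILetI false
set_option linter.unusedSectionVars false

namespace Cfsg.Agent.ConjAll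

open Subgroup

variable {G : Type*} [Group G]

/-- The centraliser of a Sylow 2-subgroup. -/
abbrev CS (c : Sylow 2 G) : Subgroup G := centralizer ((c : Subgroup G) : Set G)

/-- The normaliser of a Sylow 2-subgroup. -/
abbrev NS (c : Sylow 2 G) : Subgroup G := normalizer ((c : Subgroup G) : Set G)

/-- The centraliser of two Sylow 2-subgroups. -/
abbrev EP (c d : Sylow 2 G) : Subgroup G := CS c ⊓ CS d

/-- The two point stabiliser. -/
abbrev DP (c d : Sylow 2 G) : Subgroup G := NS c ⊓ NS d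

structure Ctx (G : Type*) [Group G] [Finite G] where
  q : ℕ
  hq : q = 8 ∨ q = 32
  hcard : ∀ c : Sylow 2 G, Nat.card c = q
  hel : ∀ c : Sylow 2 G, ∀ x ∈ c, x * x = 1
  two : ∃ c d : Sylow 2 G, c ≠ d
  hC : ∀ (c : Sylow 2 G) (t : G), t ∈ c → t ≠ 1 → centralizer ({t} : Set G) = CS c
  hidx : ∀ c : Sylow 2 G, Nat.card (NS c) = (q - 1) * Nat.card (CS c)
  hab : ∀ p : ℕ, p.Prime → p ≠ 2 → ∀ P : Subgroup G, IsPGroup p P →
    ∀ x ∈ P, ∀ y ∈ P, x * y = y * x
  hNI : ∀ p : ℕ, p.Prime → p ≠ 2 → ∀ c : Sylow 2 G, p ∣ Nat.card (CS c) →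
    ∀ u y : G, orderOf u = 2 → orderOf y = p → u * y * u⁻¹ ≠ y⁻¹
  h9 : q = 8 → ∀ g : G, orderOf g = 9 → ∀ P : Sylow 3 G, IsCyclic (P : Subgroup G)
  h3 : q = 8 → ∀ V : Sylow 3 G, (∀ v ∈ V, v ^ 3 = 1) →
    (∃ t : G, orderOf t = 2 ∧ ∀ v ∈ V, t * v * t⁻¹ = v⁻¹) →
    8 ∣ Nat.card V - 1 → 4 ∣ Nat.card (normalizer ((V : Subgroup G) : Set G))

theorem conj_sq_self {t : G} (ht : t * t = 1) : t⁻¹ = t := inv_eq_of_mul_eq_one_left ht

theorem sq_one_of_inverts {t w : G} (ht : t * t = 1) (hw : t * w * t⁻¹ = w⁻¹) :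
    (t * w) * (t * w) = 1 := by
  calc (t * w) * (t * w) = (t * w * t⁻¹) * (t * t) * w := by group
    _ = 1 := by rw [hw, ht, mul_one, inv_mul_cancel]

theorem inverts_of_sq_one {t v : G} (ht : t * t = 1) (hv : v * v = 1) :
    t * (t * v) * t⁻¹ = (t * v)⁻¹ := by
  rw [mul_inv_rev, conj_sq_self ht, conj_sq_self hv, ← mul_assoc, ht, one_mul]

theorem pow_inverts {t w : G} (hw : t * w * t⁻¹ = w⁻¹) (n : ℕ) :
    t * w ^ n * t⁻¹ = (w ^ n)⁻¹ := by
  rw [← conj_pow, hw, inv_pow]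

variable [Finite G] (C : Ctx G)
include C

theorem Ctx.m_prime : (C.q - 1).Prime := by
  rcases C.hq with h | h <;> rw [h] <;> norm_num

theorem Ctx.q_pos : 2 ≤ C.q := by rcases C.hq with h | h <;> omega

theorem Ctx.m_odd : Odd (C.q - 1) := by
  rcases C.hq with h | h <;> rw [h] <;> decide

theorem Ctx.exists_centre {t : G} (ht : t * t = 1) : ∃ c : Sylow 2 G, t ∈ c := by
  have : IsPGroup 2 (zpowers t) := by
    intro g
    obtain ⟨j, hj⟩ := mem_zpowers_iff.1 g.2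
    refine ⟨1, Subtype.ext ?_⟩
    push_cast
    rw [← hj, ← zpow_natCast, ← zpow_mul, mul_comm, zpow_mul, zpow_natCast, pow_two, ht,
      one_zpow]
  obtain ⟨c, hc⟩ := this.exists_le_sylow
  exact ⟨c, hc (mem_zpowers t)⟩

theorem Ctx.comm {c : Sylow 2 G} {x y : G} (hx : x ∈ c) (hy : y ∈ c) : x * y = y * x := by
  have h := C.hel c _ (mul_mem hx hy)
  have hx' := C.hel c _ hx
  have hy' := C.hel c _ hy
  rw [← conj_sq_self h, mul_inv_rev, conj_sq_self hx', conj_sq_self hy']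

theorem Ctx.le_CS (c : Sylow 2 G) : (c : Subgroup G) ≤ CS c := fun _ hx =>
  mem_centralizer_iff.2 fun _ hy => C.comm hy hx

theorem Ctx.CS_le_NS (c : Sylow 2 G) : CS c ≤ NS c := fun x hx =>
  mem_normalizer_iff.2 fun h => by
    constructor
    · intro hh
      rw [← mem_centralizer_iff.1 hx h hh, mul_inv_cancel_right]; exact hh
    · intro hh
      have := mem_centralizer_iff.1 hx _ hh
      have e : x * h * x⁻¹ = h := by
        calc x * h * x⁻¹ = x⁻¹ * (x * (x * h * x⁻¹)) := by group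
          _ = x⁻¹ * ((x * h * x⁻¹) * x) := by rw [this]
          _ = h := by group
      rwa [e] at hh

theorem Ctx.CS_normal {c : Sylow 2 G} {g x : G} (hg : g ∈ NS c) (hx : x ∈ CS c) :
    g * x * g⁻¹ ∈ CS c := by
  refine mem_centralizer_iff.2 fun h hh => ?_
  have h1 : g⁻¹ * h * g ∈ (c : Subgroup G) := (mem_normalizer_iff''.1 hg h).1 hh
  have h2 := mem_centralizer_iff.1 hx _ h1
  calc h * (g * x * g⁻¹) = g * ((g⁻¹ * h * g) * x) * g⁻¹ := by group
    _ = g * (x * (g⁻¹ * h * g)) * g⁻¹ := by rw [h2]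
    _ = g * x * g⁻¹ * h := by group

theorem Ctx.mem_of_pow_two {c : Sylow 2 G} {x : G} (hx : x ∈ NS c) {k : ℕ}
    (hk : x ^ 2 ^ k = 1) : x ∈ c := by
  have hp : IsPGroup 2 (zpowers x) := by
    intro g
    obtain ⟨j, hj⟩ := mem_zpowers_iff.1 g.2
    refine ⟨k, Subtype.ext ?_⟩
    push_cast
    rw [← hj, ← zpow_natCast, ← zpow_mul, mul_comm, zpow_mul, zpow_natCast, hk, one_zpow]
  have h := hp.inf_normalizer_sylow c
  have : x ∈ zpowers x ⊓ (c : Subgroup G) := h ▸ ⟨mem_zpowers x, hx⟩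
  exact this.2

theorem Ctx.mem_of_sq {c : Sylow 2 G} {x : G} (hx : x ∈ NS c) (h : x * x = 1) : x ∈ c :=
  C.mem_of_pow_two hx (k := 1) (by rw [pow_one, pow_two, h])

theorem Ctx.eq_of_mem {c d : Sylow 2 G} {t : G} (hc : t ∈ c) (hd : t ∈ d) (ht : t ≠ 1) :
    c = d := by
  refine Sylow.ext ((Subgroup.eq_of_le_of_card_ge ?_ ?_).symm)
  · intro x hx
    refine C.mem_of_sq (C.CS_le_NS c ?_) (C.hel d x hx)
    rw [← C.hC c t hc ht]
    exact mem_centralizer_singleton_iff.2 (C.comm hx hd)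
  · rw [C.hcard c, C.hcard d]

omit C in
theorem smul_eq_iff {g : G} {c : Sylow 2 G} : g • c = c ↔ g ∈ NS c :=
  Sylow.smul_eq_iff_mem_normalizer

theorem Ctx.eq_of_fix {c d : Sylow 2 G} {t : G} (hc : t ∈ c) (ht : t ≠ 1) (h : t • d = d) :
    d = c :=
  C.eq_of_mem (C.mem_of_sq (smul_eq_iff.1 h) (C.hel c t hc)) hc ht

theorem Ctx.invol_order {c : Sylow 2 G} {t : G} (hc : t ∈ c) (ht : t ≠ 1) : orderOf t = 2 :=
  orderOf_eq_prime (by rw [pow_two]; exact C.hel c t hc) ht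

theorem Ctx.coprime_of_inverts {c : Sylow 2 G} {t w : G} (ht : orderOf t = 2)
    (ho : Odd (orderOf w)) (hw : t * w * t⁻¹ = w⁻¹) :
    (orderOf w).Coprime (Nat.card (CS c)) := by
  refine Nat.coprime_of_dvd fun p hp hpw hpC => ?_
  have hp2 : p ≠ 2 := by
    rintro rfl
    exact Nat.not_even_iff_odd.2 ho (even_iff_two_dvd.2 hpw)
  exact C.hNI p hp hp2 c hpC t (w ^ (orderOf w / p)) ht
    (orderOf_pow_orderOf_div (orderOf_pos w).ne' hpw) (pow_inverts hw _)

theorem Ctx.eq_one_of_inverts_mem {c : Sylow 2 G} {t w : G} (ht : orderOf t = 2)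
    (ho : Odd (orderOf w)) (hw : t * w * t⁻¹ = w⁻¹) (hmem : w ∈ CS c) : w = 1 :=
  orderOf_eq_one_iff.1 (Nat.Coprime.eq_one_of_dvd (C.coprime_of_inverts (c := c) ht ho hw)
    (Subgroup.orderOf_dvd_natCard _ hmem))

/-- Elements fixing two points have odd order. -/
theorem Ctx.odd_of_fix_two {c d : Sylow 2 G} (hcd : c ≠ d) {g : G} (hc : g ∈ NS c)
    (hd : g ∈ NS d) : Odd (orderOf g) := by
  rw [← Nat.not_even_iff_odd]
  intro he
  obtain ⟨j, hj⟩ := he
  have hpos := orderOf_pos g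
  have hne : g ^ j ≠ 1 := pow_ne_one_of_lt_orderOf (by omega) (by omega)
  have hsq : g ^ j * g ^ j = 1 := by rw [← pow_add, ← hj, pow_orderOf_eq_one]
  exact hcd (C.eq_of_mem (C.mem_of_sq (pow_mem hc j) hsq) (C.mem_of_sq (pow_mem hd j) hsq) hne)

theorem Ctx.pow_m_mem {c : Sylow 2 G} {g : G} (hg : g ∈ NS c) : g ^ (C.q - 1) ∈ CS c := by
  haveI hn : ((CS c).subgroupOf (NS c)).Normal :=
    ⟨fun x hx y => by
      rw [mem_subgroupOf] at hx ⊢
      push_cast
      exact C.CS_normal y.2 hx⟩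
  have hi : ((CS c).subgroupOf (NS c)).index = C.q - 1 := by
    have h1 := Subgroup.card_mul_index ((CS c).subgroupOf (NS c))
    rw [Nat.card_congr (subgroupOfEquivOfLe (C.CS_le_NS c)).toEquiv, C.hidx c, mul_comm] at h1
    exact mul_right_cancel₀ Nat.card_pos.ne' h1
  have h2 := Subgroup.pow_index_mem ((CS c).subgroupOf (NS c)) ⟨g, hg⟩
  rw [hi, mem_subgroupOf] at h2
  simpa using h2

theorem Ctx.mem_CS_of_coprime {c : Sylow 2 G} {g : G} (hg : g ∈ NS c)
    (h : (C.q - 1).Coprime (orderOf g)) : g ∈ CS c := by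
  obtain ⟨j, hj⟩ := exists_pow_eq_self_of_coprime h
  rw [← hj]
  exact pow_mem (C.pow_m_mem hg) j

theorem Ctx.card_invol_fibre (c d : Sylow 2 G) (hcd : c ≠ d) :
    Nat.card {u : G // u * u = 1 ∧ u ≠ 1 ∧ u • c = d} ≤ C.q - 1 := by
  classical
  haveI hn : ((CS c).subgroupOf (NS c)).Normal :=
    ⟨fun x hx y => by
      rw [mem_subgroupOf] at hx ⊢
      push_cast
      exact C.CS_normal y.2 hx⟩
  by_cases hne : Nonempty {u : G // u * u = 1 ∧ u ≠ 1 ∧ u • c = d}
  swap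
  · rw [not_nonempty_iff] at hne
    rw [Nat.card_of_isEmpty]; exact Nat.zero_le _
  obtain ⟨⟨u0, hu0, hu01, hu0c⟩⟩ := hne
  have hfix : ∀ u : G, u * u = 1 → u • c = d → u0 * u ∈ NS c ∧ u0 * u ∈ NS d := by
    intro u hu huc
    have h1 : ∀ v : G, v * v = 1 → v • c = d → v • d = c := fun v hv hvc => by
      rw [← hvc, smul_smul, hv, one_smul]
    constructor
    · rw [← smul_eq_iff, mul_smul, huc, h1 u0 hu0 hu0c]
    · rw [← smul_eq_iff, mul_smul, h1 u hu huc, hu0c]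
  let f : {u : G // u * u = 1 ∧ u ≠ 1 ∧ u • c = d} → (NS c) ⧸ (CS c).subgroupOf (NS c) :=
    fun u => QuotientGroup.mk ⟨u0 * u.1, (hfix u.1 u.2.1 u.2.2.2).1⟩
  have hf : Function.Injective f := by
    rintro ⟨u, hu, hu1, huc⟩ ⟨v, hv, hv1, hvc⟩ huv
    refine Subtype.ext ?_
    have hmem := QuotientGroup.eq.1 huv
    rw [mem_subgroupOf] at hmem
    have e : u * v ∈ CS c := by
      simpa [conj_sq_self hu, mul_assoc] using hmem
    have hd : u * v ∈ NS d := by
      have h1 : ∀ w : G, w * w = 1 → w • c = d → w • d = c := fun w hw hwc => by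
        rw [← hwc, smul_smul, hw, one_smul]
      rw [← smul_eq_iff, mul_smul, h1 v hv hvc, huc]
    have ho := C.odd_of_fix_two hcd (C.CS_le_NS c e) hd
    have := C.eq_one_of_inverts_mem (orderOf_eq_prime (by rw [pow_two]; exact hu) hu1) ho
      (inverts_of_sq_one hu hv) e
    calc u = u * (u * v) := by rw [this, mul_one]
      _ = v := by rw [← mul_assoc, hu, one_mul]
  refine (Nat.card_le_card_of_injective f hf).trans (le_of_eq ?_)
  have h1 := Subgroup.card_mul_index ((CS c).subgroupOf (NS c))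
  rw [Nat.card_congr (subgroupOfEquivOfLe (C.CS_le_NS c)).toEquiv, C.hidx c, mul_comm] at h1
  exact mul_right_cancel₀ Nat.card_pos.ne' h1

omit C in
theorem card_ne {α : Type*} [Finite α] (a : α) :
    Nat.card {b : α // b ≠ a} = Nat.card α - 1 := by
  classical
  haveI := Fintype.ofFinite α
  rw [Nat.card_eq_fintype_card, Nat.card_eq_fintype_card, Fintype.card_subtype_compl,
    Fintype.card_subtype_eq]

/-- There are at least `n * (q-1)` involutions, exactly `q - 1` in each Sylow subgroup. -/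
theorem Ctx.card_invol :
    Nat.card {t : G // t * t = 1 ∧ t ≠ 1} = Nat.card (Sylow 2 G) * (C.q - 1) := by
  classical
  haveI := Fintype.ofFinite (Sylow 2 G)
  let e : (Σ c : Sylow 2 G, {x : (c : Subgroup G) // x ≠ 1}) → {t : G // t * t = 1 ∧ t ≠ 1} :=
    fun z => ⟨(z.2.1 : G), C.hel z.1 _ z.2.1.2, fun h => z.2.2 (Subtype.ext h)⟩
  have he : Function.Bijective e := by
    constructor
    · rintro ⟨c, ⟨x, hx⟩, hx1⟩ ⟨d, ⟨y, hy⟩, hy1⟩ h
      have hxy : x = y := congrArg Subtype.val h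
      subst hxy
      obtain rfl := C.eq_of_mem hx hy (fun h => hx1 (Subtype.ext h))
      rfl
    · rintro ⟨t, ht, ht1⟩
      obtain ⟨c, hc⟩ := C.exists_centre ht
      exact ⟨⟨c, ⟨t, hc⟩, fun h => ht1 (congrArg Subtype.val h)⟩, rfl⟩
  rw [← Nat.card_eq_of_bijective e he, Nat.card_sigma]
  have hc : ∀ c : Sylow 2 G, Nat.card {x : (c : Subgroup G) // x ≠ 1} = C.q - 1 := fun c => by
    rw [card_ne, C.hcard c]
  simp [hc, Nat.card_eq_fintype_card]

theorem Ctx.card_outside (c : Sylow 2 G) :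
    Nat.card {u : G // u * u = 1 ∧ u ≠ 1 ∧ u ∉ c} = (Nat.card (Sylow 2 G) - 1) * (C.q - 1) := by
  classical
  haveI := Fintype.ofFinite G
  have h1 : Nat.card {u : G // u * u = 1 ∧ u ≠ 1 ∧ u ∈ c} = C.q - 1 := by
    rw [← C.hcard c, ← card_ne (1 : (c : Subgroup G))]
    exact Nat.card_congr
      { toFun := fun u => ⟨⟨u.1, u.2.2.2⟩, fun h => u.2.2.1 (congrArg Subtype.val h)⟩
        invFun := fun x => ⟨x.1.1, C.hel c _ x.1.2, fun h => x.2 (Subtype.ext h), x.1.2⟩
        left_inv := fun u => rfl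
        right_inv := fun x => rfl }
  have h2 : Nat.card {u : G // u * u = 1 ∧ u ≠ 1 ∧ u ∈ c} +
      Nat.card {u : G // u * u = 1 ∧ u ≠ 1 ∧ u ∉ c} = Nat.card {u : G // u * u = 1 ∧ u ≠ 1} := by
    simp only [Nat.card_eq_fintype_card, Fintype.card_subtype]
    rw [← Finset.card_union_of_disjoint (by
      rw [Finset.disjoint_filter]; rintro x - ⟨-, -, h⟩ ⟨-, -, h'⟩; exact h' h)]
    congr 1
    ext x
    simp only [Finset.mem_union, Finset.mem_filter, Finset.mem_univ, true_and]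
    tauto
  rw [C.card_invol, h1] at h2
  rw [Nat.sub_mul, one_mul]
  omega

/-- Exactly `q - 1` involutions swap two given points. -/
theorem Ctx.card_swappers (c d : Sylow 2 G) (hcd : c ≠ d) :
    Nat.card {u : G // u * u = 1 ∧ u ≠ 1 ∧ u • c = d} = C.q - 1 := by
  classical
  haveI := Fintype.ofFinite {d : Sylow 2 G // d ≠ c}
  let f : {u : G // u * u = 1 ∧ u ≠ 1 ∧ u ∉ c} → {d : Sylow 2 G // d ≠ c} := fun u =>
    ⟨u.1 • c, fun h => u.2.2.2 (C.mem_of_sq (smul_eq_iff.1 h) u.2.1)⟩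
  have hfib : ∀ d : {d : Sylow 2 G // d ≠ c}, Nat.card {u // f u = d} =
      Nat.card {u : G // u * u = 1 ∧ u ≠ 1 ∧ u • c = d.1} := by
    intro d
    refine Nat.card_congr
      { toFun := fun u => ⟨u.1.1, u.1.2.1, u.1.2.2.1, congrArg Subtype.val u.2⟩
        invFun := fun u => ⟨⟨u.1, u.2.1, u.2.2.1, fun h => d.2 ?_⟩, Subtype.ext u.2.2.2⟩
        left_inv := fun u => rfl
        right_inv := fun u => rfl }
    rw [← u.2.2.2]
    exact smul_eq_iff.2 (C.CS_le_NS c (C.le_CS c h))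
  have hsum : ∑ d, Nat.card {u // f u = d} = ∑ _d : {d : Sylow 2 G // d ≠ c}, (C.q - 1) := by
    rw [← Nat.card_sigma, Nat.card_congr (Equiv.sigmaFiberEquiv f), C.card_outside,
      Finset.sum_const, Finset.card_univ, smul_eq_mul, ← Nat.card_eq_fintype_card, card_ne]
  have := (Finset.sum_eq_sum_iff_of_le (fun d _ => by
    rw [hfib]; exact C.card_invol_fibre c d.1 (Ne.symm d.2))).1 hsum ⟨d, Ne.symm hcd⟩
    (Finset.mem_univ _)
  rw [← hfib ⟨d, Ne.symm hcd⟩]
  exact this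

end Cfsg.Agent.ConjAll
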