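import Cfsg.Agent.ConjAll.Torus

/-!
The inverted part of the centraliser of a derangement inside a block has order `q + 1`.
-/

set_option autoImplicit false
set_option linter.style.haveILetI false
set_option linter.unusedSectionVars false

namespace Cfsg.Agent.ConjAll

open Subgroup MulAction

variable {G : Type*} [Group G] [Finite G] (C : Ctx G)

/-- The centraliser of `w` inside a block normaliser. -/
abbrev XB (w : G) (a b : Sylow 2 G) : Subgroup G := centralizer ({w} : Set G) ⊓ MP a b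

include C

omit C [Finite G] in
theorem conj_mem_centralizer {t w g : G} (hinv : t * w * t⁻¹ = w⁻¹)
    (hg : g ∈ centralizer ({w} : Set G)) : t * g * t⁻¹ ∈ centralizer ({w} : Set G) := by
  refine mem_centralizer_singleton_iff.2 ?_
  have hc : Commute g w⁻¹ := (show Commute g w from mem_centralizer_singleton_iff.1 hg).inv_right
  have e : w = t * w⁻¹ * t⁻¹ := by
    rw [show t * w⁻¹ * t⁻¹ = (t * w * t⁻¹)⁻¹ by group, hinv, inv_inv]
  calc t * g * t⁻¹ * w = t * g * t⁻¹ * (t * w⁻¹ * t⁻¹) := by rw [← e]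
    _ = t * (g * w⁻¹) * t⁻¹ := by group
    _ = t * (w⁻¹ * g) * t⁻¹ := by rw [hc.eq]
    _ = (t * w⁻¹ * t⁻¹) * (t * g * t⁻¹) := by group
    _ = w * (t * g * t⁻¹) := by rw [← e]

theorem Ctx.mem_invertedBy_iff {X : Subgroup G} {t h : G} :
    h ∈ Cfsg.invertedBy X t ↔ h ∈ X ∧ t * h * t⁻¹ = h⁻¹ := Iff.rfl

theorem Ctx.EP_le_CS_blk {a b z : Sylow 2 G} (hab : a ≠ b) (hz : EP a b ≤ NS z) :
    EP a b ≤ CS z := by
  rcases eq_or_ne z a with rfl | hza
  · exact inf_le_left
  · rw [← C.blk_eq hab hza hz (le_trans (C.EP_le_DP a b) inf_le_left)]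
    exact inf_le_left

/-- The data of a derangement inverted in a block. -/
structure BlkData (t w : G) (a b : Sylow 2 G) : Prop where
  inv : Inverts t w
  ne : a ≠ b
  ht : t ∈ a
  he : centralizer ({w} : Set G) ⊓ centralizer ({t} : Set G) = EP a b

theorem Ctx.exists_blkData {t w : G} (h : Inverts t w) : ∃ a b, BlkData t w a b ∧ t * w ∈ b := by
  obtain ⟨c, c', hne, hc, hc', -, he⟩ := Ctx.Inverts.centres C h
  exact ⟨c, c', ⟨h, hne, hc, he⟩, hc'⟩

variable {t w : G} {a b : Sylow 2 G}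

theorem Ctx.BlkData.t_mem (d : BlkData t w a b) : t ∈ MP a b :=
  C.sylow_le_MP inf_le_left d.ht

theorem Ctx.BlkData.commute_t (d : BlkData t w a b) {g : G} (hg : g ∈ EP a b) : t * g = g * t := by
  rw [← d.he] at hg
  exact (mem_centralizer_singleton_iff.1 hg.2).symm

theorem Ctx.BlkData.stable (d : BlkData t w a b) : ∀ x ∈ XB w a b, t * x * t ∈ XB w a b := by
  intro x hx
  have e : t * x * t = t * x * t⁻¹ := by rw [conj_sq_self d.inv.1]
  refine ⟨?_, mul_mem (mul_mem (Ctx.BlkData.t_mem C d) hx.2) (Ctx.BlkData.t_mem C d)⟩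
  rw [e]
  exact conj_mem_centralizer d.inv.2.2.2 hx.1

theorem Ctx.BlkData.odd_XB (d : BlkData t w a b) : Odd (Nat.card (XB w a b)) :=
  (C.odd_centralizer_der d.inv.2.2.1).of_dvd_nat (Subgroup.card_dvd_of_le inf_le_left)

theorem Ctx.BlkData.inf_t (d : BlkData t w a b) :
    XB w a b ⊓ centralizer ({t} : Set G) = EP a b := by
  refine le_antisymm ?_ ?_
  · intro g hg
    rw [← d.he]
    exact ⟨hg.1.1, hg.2⟩
  · intro g hg
    have h : g ∈ centralizer ({w} : Set G) ⊓ centralizer ({t} : Set G) := d.he.symm ▸ hg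
    exact ⟨⟨h.1, le_normalizer hg⟩, h.2⟩

theorem Ctx.BlkData.card_XB (d : BlkData t w a b) :
    Nat.card (XB w a b) = Nat.card (EP a b) * Nat.card (Cfsg.invertedBy (XB w a b) t) := by
  rw [RankOne.card_eq_mul_inverted d.inv.1 (Ctx.BlkData.odd_XB C d) (Ctx.BlkData.stable C d),
    Ctx.BlkData.inf_t C d]

/-- The inverted elements centralise the pointwise stabiliser of the block. -/
theorem Ctx.BlkData.commute_E (d : BlkData t w a b) {h : G}
    (hh : h ∈ Cfsg.invertedBy (XB w a b) t) {g : G} (hg : g ∈ EP a b) : Commute h g := by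
  obtain ⟨hφ, -, -⟩ := C.block d.ne
  have hth : t * h ∈ MP a b := mul_mem (Ctx.BlkData.t_mem C d) hh.1.2
  have hsq := sq_one_of_inverts d.inv.1 hh.2
  have hne : t * h ≠ 1 := fun h1 => by
    have ho : Odd (orderOf h) :=
      (Ctx.BlkData.odd_XB C d).of_dvd_nat (Subgroup.orderOf_dvd_natCard _ hh.1)
    rw [show h = t⁻¹ from eq_inv_of_mul_eq_one_right h1, orderOf_inv,
      orderOf_eq_prime (by rw [pow_two]; exact d.inv.1) d.inv.2.1] at ho
    exact absurd ho (by decide)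
  -- an involution fixes a point of the block
  haveI : Fact (Nat.Prime 2) := ⟨Nat.prime_two⟩
  let v : MP a b := ⟨t * h, hth⟩
  have hp : IsPGroup 2 (zpowers v) := IsPGroup.of_card (n := 1) (by
    rw [Nat.card_zpowers, pow_one, ← Subgroup.orderOf_coe]
    exact orderOf_eq_prime (by rw [pow_two]; exact hsq) hne)
  have hmod := hp.card_modEq_card_fixedPoints (α := Blk a b)
  have hne' : Nonempty (fixedPoints (zpowers v) (Blk a b)) := by
    by_contra hemp
    rw [not_nonempty_iff] at hemp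
    rw [hφ, Nat.card_of_isEmpty (α := fixedPoints (zpowers v) (Blk a b))] at hmod
    rcases C.hq with h | h <;> rw [h] at hmod <;> exact absurd hmod (by decide)
  obtain ⟨⟨z, hz⟩⟩ := hne'
  have hzf : (t * h) • z.1 = z.1 := congrArg Subtype.val (hz ⟨v, mem_zpowers v⟩)
  have hmem : t * h ∈ z.1 := C.mem_of_sq (smul_eq_iff.1 hzf) hsq
  have hg' : g ∈ centralizer ({t * h} : Set G) :=
    C.hC z.1 _ hmem hne ▸ C.EP_le_CS_blk d.ne z.2 hg
  have h1 : Commute g (t * h) := mem_centralizer_singleton_iff.1 hg'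
  have h2 : Commute g t⁻¹ := (show Commute g t from (Ctx.BlkData.commute_t C d hg).symm).inv_right
  have h3 := h2.mul_right h1
  rw [inv_mul_cancel_left] at h3
  exact h3.symm

theorem Ctx.BlkData.card_dvd (d : BlkData t w a b) :
    Nat.card (Cfsg.invertedBy (XB w a b) t) ∣ C.q + 1 := by
  obtain ⟨hφ, -, hM⟩ := C.block d.ne
  set T := Nat.card (Cfsg.invertedBy (XB w a b) t)
  have hc := Ctx.BlkData.card_XB C d
  have h1 : Nat.card (EP a b) * T ∣ Nat.card (EP a b) * ((C.q + 1) * (C.q * (C.q - 1))) := by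
    rw [← hc, show Nat.card (EP a b) * ((C.q + 1) * (C.q * (C.q - 1))) = Nat.card (MP a b) by
      rw [hM]; ring]
    exact Subgroup.card_dvd_of_le inf_le_right
  have h2 := Nat.dvd_of_mul_dvd_mul_left Nat.card_pos h1
  have hodd : Odd T := (Ctx.BlkData.odd_XB C d).of_dvd_nat ⟨_, by rw [hc, mul_comm]⟩
  have hm : ¬ (C.q - 1) ∣ T := by
    intro hdvd
    haveI : Fact (C.q - 1).Prime := ⟨C.m_prime⟩
    obtain ⟨y, hy⟩ := exists_prime_orderOf_dvd_card' (C.q - 1)
      (hdvd.trans (⟨_, by rw [hc, mul_comm]⟩ : T ∣ Nat.card (XB w a b)))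
    replace hy : orderOf (y : G) = C.q - 1 := (Subgroup.orderOf_coe y).trans hy
    let v : MP a b := ⟨y, y.2.2⟩
    have hp : IsPGroup (C.q - 1) (zpowers v) := IsPGroup.of_card (n := 1) (by
      rw [Nat.card_zpowers, pow_one, ← Subgroup.orderOf_coe]; exact hy)
    have hmod := hp.card_modEq_card_fixedPoints (α := Blk a b)
    rw [hφ] at hmod
    have h2 : 1 < Nat.card (fixedPoints (zpowers v) (Blk a b)) := by
      by_contra hle
      rcases C.hq with h | h <;> rw [h] at hmod <;>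
        rcases Nat.le_one_iff_eq_zero_or_eq_one.1 (not_lt.1 hle) with h' | h' <;>
        rw [h'] at hmod <;> exact absurd hmod (by decide)
    obtain ⟨⟨z, hz⟩, ⟨z', hz'⟩, hne⟩ := Finite.one_lt_card_iff_nontrivial.1 h2
    have hzf : (y : G) • z.1 = z.1 := congrArg Subtype.val (hz ⟨v, mem_zpowers v⟩)
    have hzf' : (y : G) • z'.1 = z'.1 := congrArg Subtype.val (hz' ⟨v, mem_zpowers v⟩)
    have hw := C.centralizer_m_le hy (fun h => hne (Subtype.ext (Subtype.ext h)))
      (smul_eq_iff.1 hzf) (smul_eq_iff.1 hzf')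
      (mem_centralizer_singleton_iff.2 (mem_centralizer_singleton_iff.1 y.2.1).symm : w ∈ _)
    exact d.inv.2.2.1 z.1 (smul_eq_iff.2 hw.1)
  have hcq : T.Coprime C.q := by
    rcases C.hq with h | h <;> rw [h]
    · exact (Nat.Coprime.pow_right 3 hodd.coprime_two_right : T.Coprime (2 ^ 3))
    · exact (Nat.Coprime.pow_right 5 hodd.coprime_two_right : T.Coprime (2 ^ 5))
  exact (hcq.mul_right (C.m_prime.coprime_iff_not_dvd.2 hm).symm).dvd_of_dvd_mul_right h2

theorem Ctx.blk_pairs_fibre {a b : Sylow 2 G} (hab : a ≠ b) {p : G × G}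
    (hp : InvPair {z | EP a b ≤ NS z} p) (hd : Der (p.1 * p.2)) :
    ∃ z : Sylow 2 G, ∃ z', BlkData p.1 (p.1 * p.2) z z' ∧ EP z z' = EP a b := by
  obtain ⟨h1, h2, c, c', hc, hc', hne, hm, hm'⟩ := hp
  have ht := C.hel c _ hm
  have hv := C.hel c' _ hm'
  have hi : Inverts p.1 (p.1 * p.2) := ⟨ht, h1, hd, inverts_of_sq_one ht hv⟩
  obtain ⟨z, z', d, hb⟩ := C.exists_blkData hi
  rw [← mul_assoc, ht, one_mul] at hb
  obtain rfl := C.eq_of_mem d.ht hm h1
  obtain rfl := C.eq_of_mem hb hm' h2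
  exact ⟨z, z', d, C.blk_eq hab hne hc hc'⟩

theorem Ctx.fibre_le {a b : Sylow 2 G} (hab : a ≠ b) {t w : G} {z z' : Sylow 2 G}
    (d : BlkData t w z z') (he : EP z z' = EP a b) :
    Nat.card {p : {p : G × G // InvPair {z | EP a b ≤ NS z} p ∧ Der (p.1 * p.2)} //
      p.1.1 * p.1.2 = w} ≤ Nat.card (Cfsg.invertedBy (XB w z z') t) := by
  have hf : ∀ p : {p : {p : G × G // InvPair {z | EP a b ≤ NS z} p ∧ Der (p.1 * p.2)} //
      p.1.1 * p.1.2 = w}, t * p.1.1.1 ∈ Cfsg.invertedBy (XB w z z') t := by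
    rintro ⟨⟨⟨t', v'⟩, ⟨h1, h2, c, c', hc, hc', hne, hm, hm'⟩, hd⟩, hw⟩
    change t' * v' = w at hw
    have ht' := C.hel c t' hm
    have hv' := C.hel c' v' hm'
    have hinv' : t' * w * t'⁻¹ = w⁻¹ := hw ▸ inverts_of_sq_one ht' hv'
    refine ⟨⟨?_, ?_⟩, ?_⟩
    · refine mem_centralizer_singleton_iff.2 ?_
      have h3 : t * t' * w * (t * t')⁻¹ = w := by
        calc t * t' * w * (t * t')⁻¹ = t * (t' * w * t'⁻¹) * t⁻¹ := by group
          _ = (t * w * t⁻¹)⁻¹ := by rw [hinv']; group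
          _ = w := by rw [d.inv.2.2.2, inv_inv]
      exact mul_inv_eq_iff_eq_mul.1 h3
    · refine mul_mem (Ctx.BlkData.t_mem C d) ?_
      have hmp : EP z z' ≤ CS c := by rw [he]; exact C.EP_le_CS_blk hab hc
      exact C.sylow_le_MP hmp hm
    · exact inverts_of_sq_one d.inv.1 ht'
  refine Nat.card_le_card_of_injective (fun p => (⟨_, hf p⟩ : Cfsg.invertedBy (XB w z z') t))
    fun p p' h => ?_
  have h' := mul_left_cancel (congrArg Subtype.val h)
  refine Subtype.ext (Subtype.ext (Prod.ext h' ?_))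
  have e : p.1.1.1 * p.1.1.2 = p'.1.1.1 * p'.1.1.2 := p.2.trans p'.2.symm
  rw [h'] at e
  exact mul_left_cancel e

/-- Every torus of a block has order `q + 1`. -/
theorem Ctx.BlkData.card_torus (d : BlkData t w a b) (hb : t * w ∈ b) :
    Nat.card (Cfsg.invertedBy (XB w a b) t) = C.q + 1 := by
  classical
  refine le_antisymm (Nat.le_of_dvd (Nat.succ_pos _) (Ctx.BlkData.card_dvd C d)) ?_
  have hab := d.ne
  obtain ⟨hφ, -, -⟩ := C.block hab
  set S : Set (Sylow 2 G) := {z | EP a b ≤ NS z} with hS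
  have hcl : ∀ (t v : G) (c c' z : Sylow 2 G), c ∈ S → c' ∈ S → c ≠ c' → t ∈ c → v ∈ c' → t ≠ 1 →
      v ≠ 1 → (t * v) • z = z → z ∈ S := by
    intro t v c c' z hc hc' hne ht hv ht1 hv1 hz
    obtain ⟨-, -, he, -⟩ := C.pair_fix hne ht hv ht1 hv1 hz
    show EP a b ≤ NS z
    rw [← C.blk_eq hab hne hc hc', he]
    exact le_trans (C.EP_le_DP _ _) inf_le_left
  have hgood := C.good_pairs_le S hcl
  rw [show Nat.card S = C.q + 1 from hφ, Nat.add_sub_cancel] at hgood
  let Good := {p : G × G // InvPair S p ∧ Der (p.1 * p.2)}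
  let RB := {w : G // ∃ p : Good, p.1.1 * p.1.2 = w}
  haveI := Fintype.ofFinite RB
  let f : Good → RB := fun p => ⟨p.1.1 * p.1.2, p, rfl⟩
  have hfib : ∀ r : RB, Nat.card {p // f p = r} =
      Nat.card {p : Good // p.1.1 * p.1.2 = r.1} := fun r =>
    Nat.card_congr (Equiv.subtypeEquivRight fun p => Subtype.ext_iff)
  have hle : ∀ r : RB, Nat.card {p // f p = r} ≤ C.q + 1 := by
    intro r
    obtain ⟨p, hp⟩ := r.2
    obtain ⟨z, z', dd, he⟩ := C.blk_pairs_fibre hab p.2.1 p.2.2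
    rw [hp] at dd
    rw [hfib]
    exact (C.fibre_le hab dd he).trans
      (Nat.le_of_dvd (Nat.succ_pos _) (Ctx.BlkData.card_dvd C dd))
  -- each such derangement times an element of `E` is a derangement of the block
  have hder : Nat.card RB * Nat.card (EP a b) ≤
      Nat.card {g : MP a b // ∀ z : Blk a b, g • z ≠ z} := by
    have hd' : ∀ r : RB, ∃ t', BlkData t' r.1 a b ∨ ∃ z z', BlkData t' r.1 z z' ∧
        EP z z' = EP a b := fun r => by
      obtain ⟨p, hp⟩ := r.2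
      obtain ⟨z, z', dd, he⟩ := C.blk_pairs_fibre hab p.2.1 p.2.2
      rw [hp] at dd
      exact ⟨p.1.1, Or.inr ⟨z, z', dd, he⟩⟩
    have hmem : ∀ r : RB, r.1 ∈ MP a b ∧ (∀ y ∈ EP a b, Commute r.1 y) ∧
        (orderOf r.1).Coprime (Nat.card (EP a b)) ∧ Der r.1 := by
      intro r
      obtain ⟨p, hp⟩ := r.2
      obtain ⟨z, z', dd, he⟩ := C.blk_pairs_fibre hab p.2.1 p.2.2
      obtain ⟨-, -, c, c', hc, hc', -, hm, hm'⟩ := p.2.1
      rw [hp] at dd
      refine ⟨?_, fun y hy => ?_, ?_, dd.inv.2.2.1⟩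
      · rw [← hp]
        exact mul_mem (C.sylow_le_MP (C.EP_le_CS_blk hab hc) hm)
          (C.sylow_le_MP (C.EP_le_CS_blk hab hc') hm')
      · rw [← he, ← dd.he] at hy
        exact (mem_centralizer_singleton_iff.1 hy.1).symm
      · exact (Ctx.Inverts.coprime C dd.inv a).coprime_dvd_right
          (Subgroup.card_dvd_of_le inf_le_left)
    rw [← Nat.card_prod]
    have hwd : ∀ ry : RB × EP a b, ∀ z : Blk a b,
        (⟨ry.1.1 * ry.2, mul_mem (hmem ry.1).1 (le_normalizer ry.2.2)⟩ : MP a b) • z ≠ z := by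
      rintro ⟨r, y⟩ z hz
      have hzf : r.1 * (y : G) ∈ NS z.1 := smul_eq_iff.1 (congrArg Subtype.val hz)
      have h1 := pow_mem hzf (Nat.card (EP a b))
      rw [(hmem r).2.1 y y.2 |>.mul_pow, RankOne.pow_card_mem y.2, mul_one] at h1
      obtain ⟨k, hk⟩ := exists_pow_eq_self_of_coprime (hmem r).2.2.1.symm
      refine (hmem r).2.2.2 z.1 (smul_eq_iff.2 ?_)
      rw [← hk]
      exact Subgroup.pow_mem _ h1 k
    refine Nat.card_le_card_of_injective (fun ry => (⟨_, hwd ry⟩ :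
      {g : MP a b // ∀ z : Blk a b, g • z ≠ z})) ?_
    rintro ⟨r, y⟩ ⟨r', y'⟩ h
    have h' : r.1 * (y : G) = r'.1 * y' := congrArg (fun g => (g.1 : G)) h
    have hr : r.1 = r'.1 := by
      refine eq_of_pow_eq_of_coprime (hmem r).2.2.1 (hmem r').2.2.1 ?_
      have h2 : (r.1 * (y : G)) ^ Nat.card (EP a b) = (r'.1 * (y' : G)) ^ Nat.card (EP a b) := by
        rw [h']
      rwa [(hmem r).2.1 y y.2 |>.mul_pow, (hmem r').2.1 y' y'.2 |>.mul_pow,
        RankOne.pow_card_mem y.2, RankOne.pow_card_mem y'.2, mul_one, mul_one] at h2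
    rw [hr] at h'
    exact Prod.ext (Subtype.ext hr) (Subtype.ext (mul_left_cancel h'))
  have hup := C.block_der_le hab
  have h2R : 2 * Nat.card RB ≤ C.q * (C.q * (C.q - 1)) := by
    have h := (Nat.mul_le_mul_left 2 hder).trans hup
    rw [mul_comm (Nat.card RB), mul_left_comm] at h
    exact Nat.le_of_mul_le_mul_left h Nat.card_pos
  have hsum : Nat.card Good = ∑ r, Nat.card {p // f p = r} := by
    rw [← Nat.card_sigma, Nat.card_congr (Equiv.sigmaFiberEquiv f)]
  have hall : ∀ r : RB, Nat.card {p // f p = r} = C.q + 1 := by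
    intro r
    refine le_antisymm (hle r) ?_
    by_contra hlt
    have hlt' : ∑ r', Nat.card {p // f p = r'} < ∑ _r' : RB, (C.q + 1) :=
      Finset.sum_lt_sum (fun r' _ => hle r') ⟨r, Finset.mem_univ _, not_le.1 hlt⟩
    rw [← hsum, Finset.sum_const, Finset.card_univ, smul_eq_mul, ← Nat.card_eq_fintype_card]
      at hlt'
    change (C.q + 1) * C.q * ((C.q - 1) * C.q) ≤ 2 * Nat.card Good at hgood
    nlinarith [hgood, hlt', h2R]
  have hp : InvPair S (t, t * w) ∧ Der (t * (t * w)) := by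
    refine ⟨⟨d.inv.2.1, fun h1 => ?_, a, b, le_trans (C.EP_le_DP a b) inf_le_left,
      le_trans (C.EP_le_DP a b) inf_le_right, hab, d.ht, hb⟩, ?_⟩
    · change t * w = 1 at h1
      exact d.inv.2.2.1 a (by
        rw [show w = t⁻¹ from eq_inv_of_mul_eq_one_right h1, conj_sq_self d.inv.1]
        exact smul_eq_iff.2 (C.CS_le_NS a (C.le_CS a d.ht)))
    · rw [← mul_assoc, d.inv.1, one_mul]; exact d.inv.2.2.1
  have h := hall ⟨w, ⟨(t, t * w), hp⟩, by
    show t * (t * w) = w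
    rw [← mul_assoc, d.inv.1, one_mul]⟩
  rw [← h, hfib]
  exact C.fibre_le hab d rfl

end Cfsg.Agent.ConjAll
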