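import Cfsg.Agent.ConjAll.Ctx

/-!
Two point stabilisers: they are products of the pointwise centraliser with a group of order
`q - 1`, whose non-identity elements fix exactly two points.
-/

set_option autoImplicit false
set_option linter.style.haveILetI false
set_option linter.unusedSectionVars false

namespace Cfsg.Agent.ConjAll

open Subgroup

variable {G : Type*} [Group G] [Finite G] (C : Ctx G)
include C

theorem Ctx.swap_smul {c d : Sylow 2 G} {u : G} (hu : u * u = 1) (h : u • c = d) : u • d = c := by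
  rw [← h, smul_smul, hu, one_smul]

omit C in
theorem conj_mem_NS {c : Sylow 2 G} (g : G) {x : G} (hx : x ∈ NS c) :
    g * x * g⁻¹ ∈ NS (g • c) := by
  rw [← smul_eq_iff] at hx ⊢
  rw [smul_smul, show g * x * g⁻¹ * g = g * x by group, mul_smul, hx]

omit C in
theorem conj_mem_CS {c : Sylow 2 G} (g : G) {x : G} (hx : x ∈ CS c) :
    g * x * g⁻¹ ∈ CS (g • c) := by
  refine mem_centralizer_iff.2 fun y hy => ?_
  rw [SetLike.mem_coe, Sylow.coe_subgroup_smul, Subgroup.mem_smul_pointwise_iff_exists] at hy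
  obtain ⟨y, hy', rfl⟩ := hy
  rw [MulAut.smul_def, MulAut.conj_apply]
  have h := mem_centralizer_iff.1 hx y hy'
  calc g * y * g⁻¹ * (g * x * g⁻¹) = g * (y * x) * g⁻¹ := by group
    _ = g * (x * y) * g⁻¹ := by rw [h]
    _ = g * x * g⁻¹ * (g * y * g⁻¹) := by group

theorem Ctx.EP_le_DP (c d : Sylow 2 G) : EP c d ≤ DP c d :=
  inf_le_inf (C.CS_le_NS c) (C.CS_le_NS d)

theorem Ctx.exists_swapper {c d : Sylow 2 G} (hcd : c ≠ d) :
    ∃ u : G, u * u = 1 ∧ u ≠ 1 ∧ u • c = d := by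
  have h := C.card_swappers c d hcd
  have : 0 < Nat.card {u : G // u * u = 1 ∧ u ≠ 1 ∧ u • c = d} := by
    rw [h]; exact C.m_prime.pos
  obtain ⟨⟨u, hu⟩⟩ := (Nat.card_pos_iff.1 this).1
  exact ⟨u, hu⟩

/-- An element of order `q - 1` in a two point stabiliser, a product of two swappers. -/
theorem Ctx.exists_x {c d : Sylow 2 G} (hcd : c ≠ d) :
    ∃ x u v : G, x = u * v ∧ (u * u = 1 ∧ u ≠ 1 ∧ u • c = d) ∧ (v * v = 1 ∧ v ≠ 1 ∧ v • c = d) ∧
      x ∈ DP c d ∧ orderOf x = C.q - 1 := by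
  have h := C.card_swappers c d hcd
  have h2 : 1 < Nat.card {u : G // u * u = 1 ∧ u ≠ 1 ∧ u • c = d} := by
    rw [h]; exact C.m_prime.one_lt
  obtain ⟨⟨u, hu⟩, ⟨v, hv⟩, hne⟩ := Finite.one_lt_card_iff_nontrivial.1 h2
  have hD : u * v ∈ DP c d := by
    refine ⟨smul_eq_iff.1 ?_, smul_eq_iff.1 ?_⟩
    · rw [mul_smul, hv.2.2, C.swap_smul hu.1 hu.2.2]
    · rw [mul_smul, C.swap_smul hv.1 hv.2.2, hu.2.2]
  have ho := C.odd_of_fix_two hcd hD.1 hD.2
  have hinv := inverts_of_sq_one hu.1 hv.1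
  have ht : orderOf u = 2 := orderOf_eq_prime (by rw [pow_two]; exact hu.1) hu.2.1
  have hne1 : u * v ≠ 1 := fun h1 => hne (Subtype.ext (by
    calc u = u * (u * v) := by rw [h1, mul_one]
      _ = v := by rw [← mul_assoc, hu.1, one_mul]))
  have hm := C.pow_m_mem hD.1
  have hom : Odd (orderOf ((u * v) ^ (C.q - 1))) := ho.of_dvd_nat (orderOf_pow_dvd _)
  have h1 := C.eq_one_of_inverts_mem ht hom (pow_inverts hinv _) hm
  exact ⟨u * v, u, v, rfl, hu, hv, hD, by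
    haveI : Fact (C.q - 1).Prime := ⟨C.m_prime⟩
    exact orderOf_eq_prime h1 hne1⟩

theorem Ctx.not_dvd_m (c : Sylow 2 G) : ¬ (C.q - 1) ∣ Nat.card (CS c) := by
  intro hdvd
  obtain ⟨a, b, hab⟩ := C.two
  obtain ⟨x, u, v, hx, hu, hv, hD, ho⟩ := C.exists_x hab
  subst hx
  exact C.hNI _ C.m_prime (fun h => by have := C.m_odd; rw [h] at this; exact absurd this (by decide)) c hdvd u
    (u * v) (orderOf_eq_prime (by rw [pow_two]; exact hu.1) hu.2.1) ho (inverts_of_sq_one hu.1 hv.1)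

theorem Ctx.coprime_CS (c : Sylow 2 G) : (C.q - 1).Coprime (Nat.card (CS c)) :=
  C.m_prime.coprime_iff_not_dvd.2 (C.not_dvd_m c)

theorem Ctx.coprime_of_mem_CS {c : Sylow 2 G} {g : G} (hg : g ∈ CS c) :
    (C.q - 1).Coprime (orderOf g) :=
  (C.coprime_CS c).coprime_dvd_right (Subgroup.orderOf_dvd_natCard _ hg)

theorem Ctx.mem_EP_of_coprime {c d : Sylow 2 G} {g : G} (hg : g ∈ DP c d)
    (h : (C.q - 1).Coprime (orderOf g)) : g ∈ EP c d :=
  ⟨C.mem_CS_of_coprime hg.1 h, C.mem_CS_of_coprime hg.2 h⟩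

theorem Ctx.mem_EP {c d : Sylow 2 G} {g : G} (hg : g ∈ DP c d) (hc : g ∈ CS c) : g ∈ EP c d :=
  C.mem_EP_of_coprime hg (C.coprime_of_mem_CS hc)

theorem Ctx.odd_card_DP {c d : Sylow 2 G} (hcd : c ≠ d) : Odd (Nat.card (DP c d)) := by
  rw [← Nat.not_even_iff_odd]
  intro he
  haveI : Fact (Nat.Prime 2) := ⟨Nat.prime_two⟩
  obtain ⟨g, hg⟩ := exists_prime_orderOf_dvd_card' 2 (even_iff_two_dvd.1 he)
  replace hg : orderOf (g : G) = 2 := (Subgroup.orderOf_coe g).trans hg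
  have := C.odd_of_fix_two hcd g.2.1 g.2.2
  rw [hg] at this
  exact absurd this (by decide)

/-- Swappers centralise the pointwise centraliser of the pair. -/
theorem Ctx.swapper_commute {c d : Sylow 2 G} (hcd : c ≠ d) {u : G} (hu : u * u = 1)
    (hu1 : u ≠ 1) (huc : u • c = d) {g : G} (hg : g ∈ EP c d) : u * g = g * u := by
  have hud := C.swap_smul hu huc
  have h1 : u * g * u⁻¹ ∈ EP c d := by
    refine ⟨?_, ?_⟩
    · have := conj_mem_CS u hg.2; rwa [hud] at this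
    · have := conj_mem_CS u hg.1; rwa [huc] at this
  have hw : g⁻¹ * (u * g * u⁻¹) ∈ EP c d := mul_mem (inv_mem hg) h1
  have ho := C.odd_of_fix_two hcd (C.CS_le_NS c hw.1) (C.CS_le_NS d hw.2)
  have hinv : u * (g⁻¹ * (u * g * u⁻¹)) * u⁻¹ = (g⁻¹ * (u * g * u⁻¹))⁻¹ := by
    rw [conj_sq_self hu]
    simp only [mul_inv_rev, inv_inv, conj_sq_self hu]
    calc u * (g⁻¹ * (u * g * u)) * u = u * g⁻¹ * u * g * (u * u) := by group
      _ = u * (g⁻¹ * u) * g := by rw [hu]; group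
  have := C.eq_one_of_inverts_mem (orderOf_eq_prime (by rw [pow_two]; exact hu) hu1) ho hinv hw.1
  calc u * g = g * (g⁻¹ * (u * g * u⁻¹)) * u := by group
    _ = g * u := by rw [this, mul_one]

theorem Ctx.x_spec {c d : Sylow 2 G} (hcd : c ≠ d) :
    ∃ x : G, x ∈ DP c d ∧ orderOf x = C.q - 1 ∧ x ∉ CS c ∧
      (∀ g ∈ EP c d, x * g = g * x) ∧
      (∀ g ∈ DP c d, ∃ e ∈ EP c d, ∃ i : ℕ, g = e * x ^ i) := by
  obtain ⟨x, u, v, rfl, hu, hv, hD, ho⟩ := C.exists_x hcd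
  have hnm : u * v ∉ CS c := fun h => by
    have := C.coprime_of_mem_CS h
    rw [ho, Nat.coprime_self] at this
    exact C.m_prime.ne_one this
  refine ⟨u * v, hD, ho, hnm, fun g hg => ?_, fun g hg => ?_⟩
  · rw [mul_assoc, C.swapper_commute hcd hv.1 hv.2.1 hv.2.2 hg, ← mul_assoc,
      C.swapper_commute hcd hu.1 hu.2.1 hu.2.2 hg, mul_assoc]
  · haveI hn : ((CS c).subgroupOf (NS c)).Normal :=
      ⟨fun x hx y => by
        rw [mem_subgroupOf] at hx ⊢
        push_cast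
        exact C.CS_normal y.2 hx⟩
    have hi : Nat.card (NS c ⧸ (CS c).subgroupOf (NS c)) = C.q - 1 := by
      have h1 := Subgroup.card_mul_index ((CS c).subgroupOf (NS c))
      rw [Nat.card_congr (subgroupOfEquivOfLe (C.CS_le_NS c)).toEquiv, C.hidx c, mul_comm] at h1
      exact mul_right_cancel₀ Nat.card_pos.ne' h1
    haveI : Fact (C.q - 1).Prime := ⟨C.m_prime⟩
    have hgen : (QuotientGroup.mk (⟨g, hg.1⟩ : NS c) : NS c ⧸ (CS c).subgroupOf (NS c)) ∈
        Submonoid.powers (QuotientGroup.mk (⟨u * v, hD.1⟩ : NS c)) := by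
      refine mem_powers_of_prime_card hi ?_
      rw [Ne, QuotientGroup.eq_one_iff, mem_subgroupOf]
      exact hnm
    obtain ⟨i, hi'⟩ := hgen
    refine ⟨g * ((u * v) ^ i)⁻¹, C.mem_EP (mul_mem hg (inv_mem (pow_mem hD i))) ?_, i, by group⟩
    change QuotientGroup.mk (⟨u * v, hD.1⟩ : NS c) ^ i = _ at hi'
    rw [← QuotientGroup.mk_pow, QuotientGroup.eq, mem_subgroupOf] at hi'
    have h3 := C.CS_normal (pow_mem hD.1 i) hi'
    simpa [mul_assoc] using h3

theorem Ctx.card_DP {c d : Sylow 2 G} (hcd : c ≠ d) :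
    Nat.card (DP c d) = (C.q - 1) * Nat.card (EP c d) := by
  obtain ⟨x, hx, ho, hnm, hc, hdec⟩ := C.x_spec hcd
  let f : EP c d × Fin (C.q - 1) → DP c d := fun p =>
    ⟨(p.1 : G) * x ^ (p.2 : ℕ), mul_mem (C.EP_le_DP c d p.1.2) (pow_mem hx _)⟩
  have hf : Function.Bijective f := by
    constructor
    · rintro ⟨e, i⟩ ⟨e', j⟩ h
      have h' : (e : G) * x ^ (i : ℕ) = (e' : G) * x ^ (j : ℕ) := congrArg Subtype.val h
      have hm : (e' : G)⁻¹ * e = x ^ (j : ℕ) * (x ^ (i : ℕ))⁻¹ := by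
        rw [eq_mul_inv_iff_mul_eq, mul_assoc, h', inv_mul_cancel_left]
      have h1 : ((e' : G)⁻¹ * e) ^ (C.q - 1) = 1 := by
        have hxm : x ^ (C.q - 1) = 1 := by rw [← ho]; exact pow_orderOf_eq_one x
        rw [hm, (((Commute.refl x).pow_pow _ _).inv_right).mul_pow, inv_pow, ← pow_mul, ← pow_mul,
          mul_comm (j : ℕ), mul_comm (i : ℕ), pow_mul, pow_mul, hxm]
        simp
      have h2 : (e' : G)⁻¹ * e = 1 := by
        refine orderOf_eq_one_iff.1 (Nat.Coprime.eq_one_of_dvd ?_ (orderOf_dvd_of_pow_eq_one h1))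
        exact (C.coprime_of_mem_CS (mul_mem (inv_mem e'.2.1) e.2.1)).symm
      have he : (e : G) = e' := (inv_mul_eq_one.1 h2).symm
      rw [he] at h'
      have hij := mul_left_cancel h'
      rw [pow_inj_mod, ho, Nat.mod_eq_of_lt i.2, Nat.mod_eq_of_lt j.2] at hij
      exact Prod.ext (Subtype.ext he) (Fin.ext hij)
    · rintro ⟨g, hg⟩
      obtain ⟨e, he, i, rfl⟩ := hdec g hg
      refine ⟨⟨⟨e, he⟩, ⟨i % (C.q - 1), Nat.mod_lt _ C.m_prime.pos⟩⟩, Subtype.ext ?_⟩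
      show e * x ^ (i % (C.q - 1)) = e * x ^ i
      rw [← ho, pow_mod_orderOf]
  rw [← Nat.card_eq_of_bijective f hf, Nat.card_prod, Nat.card_fin, mul_comm]

/-- Swappers invert the elements of order dividing `q - 1` in the two point stabiliser. -/
theorem Ctx.swapper_inverts {c d : Sylow 2 G} (hcd : c ≠ d) {u : G} (hu : u * u = 1)
    (hu1 : u ≠ 1) (huc : u • c = d) {y : G} (hy : y ∈ DP c d) (hym : y ^ (C.q - 1) = 1) :
    u * y * u⁻¹ = y⁻¹ := by
  obtain ⟨x, hx, ho, hnm, hc, hdec⟩ := C.x_spec hcd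
  have key : ∀ z ∈ DP c d, z ^ (C.q - 1) = 1 → ∃ i : ℕ, z = x ^ i := by
    intro z hz hzm
    obtain ⟨e, he, i, rfl⟩ := hdec z hz
    refine ⟨i, ?_⟩
    have hcm : Commute e (x ^ i) := (Commute.pow_left (hc e he) i).symm
    rw [hcm.mul_pow, ← pow_mul x, mul_comm i, pow_mul, ← ho, pow_orderOf_eq_one, one_pow, mul_one,
      ho] at hzm
    rw [orderOf_eq_one_iff.1 (Nat.Coprime.eq_one_of_dvd (C.coprime_of_mem_CS he.1).symm
      (orderOf_dvd_of_pow_eq_one hzm)), one_mul]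
  obtain ⟨v, hv, hv1, hvc, hne⟩ : ∃ v : G, v * v = 1 ∧ v ≠ 1 ∧ v • c = d ∧ v ≠ u := by
    by_contra hcon
    push Not at hcon
    have h2 : Nat.card {w : G // w * w = 1 ∧ w ≠ 1 ∧ w • c = d} ≤ 1 :=
      Finite.card_le_one_iff_subsingleton.2 ⟨fun a b => Subtype.ext (by
        rw [hcon a.1 a.2.1 a.2.2.1 a.2.2.2, hcon b.1 b.2.1 b.2.2.1 b.2.2.2])⟩
    rw [C.card_swappers c d hcd] at h2
    exact absurd h2 (not_le.2 C.m_prime.one_lt)
  have hD : u * v ∈ DP c d := by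
    refine ⟨smul_eq_iff.1 ?_, smul_eq_iff.1 ?_⟩
    · rw [mul_smul, hvc, C.swap_smul hu huc]
    · rw [mul_smul, C.swap_smul hv hvc, huc]
  have hinv := inverts_of_sq_one hu hv
  have hoz : (u * v) ^ (C.q - 1) = 1 :=
    C.eq_one_of_inverts_mem (orderOf_eq_prime (by rw [pow_two]; exact hu) hu1)
      ((C.odd_of_fix_two hcd hD.1 hD.2).of_dvd_nat (orderOf_pow_dvd _)) (pow_inverts hinv _)
      (C.pow_m_mem hD.1)
  haveI : Fact (C.q - 1).Prime := ⟨C.m_prime⟩
  have hne1 : u * v ≠ 1 := fun h1 => hne (by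
    calc v = u * (u * v) := by rw [← mul_assoc, hu, one_mul]
      _ = u := by rw [h1, mul_one])
  obtain ⟨i, hi⟩ := key _ hD hoz
  obtain ⟨j, hj⟩ := key y hy hym
  have hcop : i.Coprime (orderOf x) := by
    rw [ho]
    refine (C.m_prime.coprime_iff_not_dvd.2 fun hdvd => hne1 ?_).symm
    rw [hi]
    obtain ⟨k, rfl⟩ := hdvd
    rw [pow_mul, ← ho, pow_orderOf_eq_one, one_pow]
  obtain ⟨k, hk⟩ := exists_pow_eq_self_of_coprime hcop
  rw [hj, ← hk, ← hi, ← pow_mul]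
  exact pow_inverts hinv _

theorem Ctx.odd_centralizer_m {x : G} (hx : orderOf x = C.q - 1) :
    Odd (Nat.card (centralizer ({x} : Set G))) := by
  rw [← Nat.not_even_iff_odd]
  intro he
  haveI : Fact (Nat.Prime 2) := ⟨Nat.prime_two⟩
  obtain ⟨g, hg⟩ := exists_prime_orderOf_dvd_card' 2 (even_iff_two_dvd.1 he)
  replace hg : orderOf (g : G) = 2 := (Subgroup.orderOf_coe g).trans hg
  have hg2 : (g : G) * g = 1 := by
    have := pow_orderOf_eq_one (g : G)
    rwa [hg, pow_two] at this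
  obtain ⟨c, hc⟩ := C.exists_centre hg2
  have hne : (g : G) ≠ 1 := fun h => by rw [h, orderOf_one] at hg; omega
  have hmem : x ∈ CS c := by
    rw [← C.hC c g hc hne]
    exact mem_centralizer_singleton_iff.2 (mem_centralizer_singleton_iff.1 g.2).symm
  refine C.not_dvd_m c ?_
  rw [← hx]
  exact Subgroup.orderOf_dvd_natCard _ hmem

/-- An element of order `q - 1` fixes at most two points. -/
theorem Ctx.fix_m {x : G} (hx : orderOf x = C.q - 1) {a b c : Sylow 2 G} (hab : a ≠ b)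
    (ha : x ∈ NS a) (hb : x ∈ NS b) (hc : x ∈ NS c) : c = a ∨ c = b := by
  by_contra hcon
  push Not at hcon
  have hxm : x ^ (C.q - 1) = 1 := by rw [← hx]; exact pow_orderOf_eq_one x
  obtain ⟨u1, h1, h1n, h1s⟩ := C.exists_swapper hab
  obtain ⟨u2, h2, h2n, h2s⟩ := C.exists_swapper (Ne.symm hcon.1)
  obtain ⟨u3, h3, h3n, h3s⟩ := C.exists_swapper (Ne.symm hcon.2)
  have i1 := C.swapper_inverts hab h1 h1n h1s ⟨ha, hb⟩ hxm
  have i2 := C.swapper_inverts (Ne.symm hcon.1) h2 h2n h2s ⟨ha, hc⟩ hxm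
  have i3 := C.swapper_inverts (Ne.symm hcon.2) h3 h3n h3s ⟨hb, hc⟩ hxm
  set i := u3 * (u2 * u1) with hi
  have hfix : i ∈ NS b := by
    rw [← smul_eq_iff, hi, mul_smul, mul_smul, C.swap_smul h1 h1s, h2s, C.swap_smul h3 h3s]
  have hinv : i * x * i⁻¹ = x⁻¹ := by
    calc i * x * i⁻¹ = u3 * (u2 * (u1 * x * u1⁻¹) * u2⁻¹) * u3⁻¹ := by rw [hi]; group
      _ = u3 * (u2 * x⁻¹ * u2⁻¹) * u3⁻¹ := by rw [i1]
      _ = u3 * (u2 * x * u2⁻¹)⁻¹ * u3⁻¹ := by group
      _ = x⁻¹ := by rw [i2, inv_inv, i3]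
  obtain ⟨k, o, ho, hk⟩ := Nat.exists_eq_two_pow_mul_odd (orderOf_pos i).ne'
  have hb2 : i ^ o ∈ b := by
    refine C.mem_of_pow_two (pow_mem hfix o) (k := k) ?_
    rw [← pow_mul, mul_comm, ← hk, pow_orderOf_eq_one]
  have hio := conj_odd_pow hinv ho
  have hbn : x * (i ^ o)⁻¹ * x⁻¹ ∈ (b : Subgroup G) :=
    (mem_normalizer_iff.1 hb _).1 (inv_mem hb2)
  have hmem : x⁻¹ * x⁻¹ ∈ (b : Subgroup G) := by
    have e : i ^ o * (x * (i ^ o)⁻¹ * x⁻¹) = x⁻¹ * x⁻¹ := by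
      rw [show i ^ o * (x * (i ^ o)⁻¹ * x⁻¹) = (i ^ o * x * (i ^ o)⁻¹) * x⁻¹ by group, hio]
    rw [← e]; exact mul_mem hb2 hbn
  have h4 := C.hel b _ hmem
  have h5 : x ^ 4 = 1 := by
    rw [← inv_inj, ← inv_pow, inv_one, show (4 : ℕ) = 2 + 2 from rfl, pow_add, pow_two]
    exact h4
  have h6 := orderOf_dvd_of_pow_eq_one h5
  rw [hx] at h6
  rcases C.hq with h | h <;> rw [h] at h6 <;> norm_num at h6

theorem Ctx.centralizer_m_le {x : G} (hx : orderOf x = C.q - 1) {a b : Sylow 2 G} (hab : a ≠ b)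
    (ha : x ∈ NS a) (hb : x ∈ NS b) : centralizer ({x} : Set G) ≤ DP a b := by
  intro g hg
  have hgo : Odd (orderOf g) :=
    (C.odd_centralizer_m hx).of_dvd_nat (Subgroup.orderOf_dvd_natCard _ hg)
  have hmap : ∀ h ∈ centralizer ({x} : Set G), ∀ c : Sylow 2 G, x ∈ NS c → x ∈ NS (h • c) := by
    intro h hh c hc
    have := conj_mem_NS h hc
    rwa [show h * x * h⁻¹ = x by rw [mem_centralizer_singleton_iff.1 hh, mul_inv_cancel_right]]
      at this
  have h2 : g ^ 2 • a = a ∧ g ^ 2 • b = b := by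
    have hinj : ∀ p r : Sylow 2 G, g • p = g • r → p = r := fun p r h =>
      MulAction.injective g h
    have e : ∀ p : Sylow 2 G, g ^ 2 • p = g • (g • p) := fun p => by rw [pow_two, mul_smul]
    rcases C.fix_m hx hab ha hb (hmap g hg a ha) with h | h <;>
      rcases C.fix_m hx hab ha hb (hmap g hg b hb) with h' | h'
    · exact absurd (hinj a b (h.trans h'.symm)) hab
    · exact ⟨by rw [e, h, h], by rw [e, h', h']⟩
    · exact ⟨by rw [e, h, h'], by rw [e, h', h]⟩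
    · exact absurd (hinj a b (h.trans h'.symm)) hab
  obtain ⟨j, hj⟩ := hgo
  have hg' : g = (g ^ 2) ^ (j + 1) := by
    rw [← pow_mul, show 2 * (j + 1) = orderOf g + 1 by omega, pow_succ, pow_orderOf_eq_one, one_mul]
  rw [hg']
  exact Subgroup.pow_mem (DP a b) ⟨smul_eq_iff.1 h2.1, smul_eq_iff.1 h2.2⟩ _

/-- The group is doubly transitive on the Sylow 2-subgroups. -/
theorem Ctx.transitive {c d d' : Sylow 2 G} (hd : c ≠ d) (hd' : c ≠ d') :
    ∃ h ∈ NS c, h • d = d' := by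
  haveI : Fact (C.q - 1).Prime := ⟨C.m_prime⟩
  obtain ⟨x, hx, ho, -⟩ := C.x_spec hd
  obtain ⟨x', hx', ho', -⟩ := C.x_spec hd'
  have hfac : (Nat.card (NS c)).factorization (C.q - 1) = 1 := by
    rw [C.hidx c, Nat.factorization_mul C.m_prime.ne_zero Nat.card_pos.ne', Finsupp.add_apply,
      C.m_prime.factorization_self, Nat.factorization_eq_zero_of_not_dvd (C.not_dvd_m c)]
  have hcard : ∀ (y : NS c), orderOf (y : G) = C.q - 1 →
      Nat.card (zpowers y) = (C.q - 1) ^ (Nat.card (NS c)).factorization (C.q - 1) := fun y hy => by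
    rw [hfac, pow_one, Nat.card_zpowers, ← Subgroup.orderOf_coe, hy]
  let P : Sylow (C.q - 1) (NS c) := Sylow.ofCard _ (hcard ⟨x, hx.1⟩ ho)
  let P' : Sylow (C.q - 1) (NS c) := Sylow.ofCard _ (hcard ⟨x', hx'.1⟩ ho')
  obtain ⟨h, hh⟩ := MulAction.exists_smul_eq (NS c) P P'
  have h1 : (⟨x', hx'.1⟩ : NS c) ∈ ((h • P : Sylow (C.q - 1) (NS c)) : Subgroup (NS c)) := by
    rw [hh]
    show (⟨x', hx'.1⟩ : NS c) ∈ zpowers _
    exact mem_zpowers _
  rw [Sylow.coe_subgroup_smul, Subgroup.mem_smul_pointwise_iff_exists] at h1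
  obtain ⟨y, hy, hyx⟩ := h1
  change y ∈ zpowers _ at hy
  obtain ⟨i, rfl⟩ := mem_zpowers_iff.1 hy
  rw [MulAut.smul_def, MulAut.conj_apply] at hyx
  have e : x' = (h : G) * x ^ i * (h : G)⁻¹ := by
    have := congrArg (Subtype.val (p := (· ∈ NS c))) hyx
    simpa using this.symm
  refine ⟨h, h.2, ?_⟩
  have hfix : x' ∈ NS ((h : G) • d) := by
    rw [e]
    exact conj_mem_NS (h : G) (Subgroup.zpow_mem (NS d) hx.2 i)
  refine (C.fix_m ho' hd' hx'.1 hx'.2 hfix).resolve_left fun hcon => hd ?_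
  exact (MulAction.injective (h : G) ((smul_eq_iff.2 h.2).trans hcon.symm))

theorem Ctx.card_EP_smul (g : G) (c d : Sylow 2 G) :
    Nat.card (EP (g • c) (g • d)) = Nat.card (EP c d) := by
  have h : ∀ (g : G) (c d : Sylow 2 G), ∀ x ∈ EP c d, g * x * g⁻¹ ∈ EP (g • c) (g • d) :=
    fun g c d x hx => ⟨conj_mem_CS g hx.1, conj_mem_CS g hx.2⟩
  refine (Nat.card_congr
    { toFun := fun x : EP c d => (⟨g * x.1 * g⁻¹, h g c d _ x.2⟩ : EP (g • c) (g • d))
      invFun := fun y => ⟨g⁻¹ * y.1 * g⁻¹⁻¹, by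
        have := h g⁻¹ _ _ _ y.2
        rwa [inv_smul_smul, inv_smul_smul] at this⟩
      left_inv := fun x => Subtype.ext (by simp [mul_assoc])
      right_inv := fun y => Subtype.ext (by simp [mul_assoc]) }).symm

theorem Ctx.exists_smul_pair {a b c d : Sylow 2 G} (hab : a ≠ b) (hcd : c ≠ d) :
    ∃ g : G, g • a = c ∧ g • b = d := by
  obtain ⟨g, hg⟩ := MulAction.exists_smul_eq G a c
  have h1 : c ≠ g • b := fun h => hab (MulAction.injective g (hg.trans h))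
  obtain ⟨h, hh, hhd⟩ := C.transitive h1 hcd
  exact ⟨h * g, by rw [mul_smul, hg]; exact smul_eq_iff.2 hh, by rw [mul_smul]; exact hhd⟩

theorem Ctx.card_EP_eq {a b c d : Sylow 2 G} (hab : a ≠ b) (hcd : c ≠ d) :
    Nat.card (EP a b) = Nat.card (EP c d) := by
  obtain ⟨g, rfl, rfl⟩ := C.exists_smul_pair hab hcd
  exact (C.card_EP_smul g a b).symm

/-- A pointwise centraliser of a pair fixing a second pair is the centraliser of that pair. -/
theorem Ctx.EP_eq_of_fix {a b c d : Sylow 2 G} (hab : a ≠ b) (hcd : c ≠ d)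
    (hc : EP a b ≤ NS c) (hd : EP a b ≤ NS d) : EP a b = EP c d :=
  Subgroup.eq_of_le_of_card_ge
    (fun _ hx => C.mem_EP_of_coprime ⟨hc hx, hd hx⟩ (C.coprime_of_mem_CS hx.1))
    (C.card_EP_eq hcd hab).le

/-- A nontrivial element outside the centraliser of a pair fixes only that pair. -/
theorem Ctx.fix_eq_two {a b c : Sylow 2 G} (hab : a ≠ b) {g : G} (hg : g ∈ DP a b)
    (hgE : g ∉ EP a b) (hc : g ∈ NS c) : c = a ∨ c = b := by
  obtain ⟨x, hx, ho, hnm, hcm, hdec⟩ := C.x_spec hab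
  obtain ⟨e, he, i, rfl⟩ := hdec g hg
  have hxi : x ^ i ≠ 1 := fun h => hgE (by rw [h, mul_one]; exact he)
  haveI : Fact (C.q - 1).Prime := ⟨C.m_prime⟩
  have hop : orderOf (x ^ i) = C.q - 1 := by
    refine orderOf_eq_prime ?_ hxi
    rw [← pow_mul, mul_comm, pow_mul, ← ho, pow_orderOf_eq_one, one_pow]
  obtain ⟨j, hj⟩ : ∃ j : ℕ, (e * x ^ i) ^ j = x ^ i := by
    have hc1 : Commute e (x ^ i) := (Commute.pow_left (hcm e he) i).symm
    obtain ⟨k, hk⟩ := exists_pow_eq_self_of_coprime (x := x ^ i) (n := orderOf e) (by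
      rw [hop]; exact (C.coprime_of_mem_CS he.1).symm)
    refine ⟨orderOf e * k, ?_⟩
    rw [pow_mul, hc1.mul_pow, pow_orderOf_eq_one, one_mul, hk]
  have hg' : ∀ z : Sylow 2 G, e * x ^ i ∈ NS z → x ^ i ∈ NS z := fun z hz => hj ▸ pow_mem hz j
  exact C.fix_m hop hab (pow_mem hx.1 i) (pow_mem hx.2 i) (hg' c hc)

end Cfsg.Agent.ConjAll
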