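import Mathlib
import Cfsg.Agent.S4020
import Cfsg.Agent.Invol.BaerSuzuki
import Cfsg.Agent.PSolv.Cores
import Cfsg.Prelude.Def_CaseTheorems

/-!
General facts about finite groups in which subgroups of equal order are conjugate.
-/

set_option autoImplicit false
set_option linter.style.haveILetI false
set_option linter.unusedSectionVars false

namespace Cfsg.Agent.ConjAll

open Subgroup

/-- Any two subgroups of the same order are conjugate. -/
def IsConjAll (G : Type*) [Group G] : Prop :=
  ∀ H K : Subgroup G, Nat.card H = Nat.card K → ∃ g : G, K = H.map (MulAut.conj g).toMonoidHom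

variable {G : Type*} [Group G] [Finite G]

theorem card_comap_of_surjective {H : Type*} [Group H] (f : G →* H) (hf : Function.Surjective f)
    (A : Subgroup H) : Nat.card (A.comap f) = Nat.card f.ker * Nat.card A := by
  haveI : Finite H := Finite.of_surjective f hf
  have h2 := Subgroup.card_mul_index (A.comap f)
  rw [Subgroup.index_comap_of_surjective A hf, ← Subgroup.card_mul_index f.ker,
    show f.ker.index = Nat.card H by
      rw [Subgroup.index_ker, MonoidHom.range_eq_top.2 hf, Subgroup.card_top],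
    ← Subgroup.card_mul_index A, ← mul_assoc] at h2
  exact mul_right_cancel₀ Subgroup.index_ne_zero_of_finite h2

theorem IsConjAll.quotient (hC : IsConjAll G) (M : Subgroup G) [M.Normal] :
    IsConjAll (G ⧸ M) := by
  intro H K h
  set π := QuotientGroup.mk' M
  have hπ : Function.Surjective π := QuotientGroup.mk'_surjective M
  obtain ⟨g, hg⟩ := hC (H.comap π) (K.comap π) (by
    rw [card_comap_of_surjective π hπ, card_comap_of_surjective π hπ, h])
  refine ⟨π g, ?_⟩
  have h2 := congrArg (Subgroup.map π) hg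
  rw [Subgroup.map_comap_eq_self_of_surjective hπ, Subgroup.map_map] at h2
  rw [h2, show π.comp (MulAut.conj g).toMonoidHom = (MulAut.conj (π g)).toMonoidHom.comp π from
      MonoidHom.ext fun x => by simp, ← Subgroup.map_map,
    Subgroup.map_comap_eq_self_of_surjective hπ]

variable (hC : IsConjAll G)
include hC

theorem IsConjAll.pGroups : ∀ p : ℕ, p.Prime → ∀ H K : Subgroup G, IsPGroup p H → IsPGroup p K →
    Nat.card H = Nat.card K → ∃ g : G, K = H.map (MulAut.conj g).toMonoidHom :=
  fun _ _ H K _ _ h => hC H K h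

/-- Cyclic subgroups of equal order are conjugate. -/
theorem IsConjAll.exists_zpowers {x y : G} (h : orderOf x = orderOf y) :
    ∃ g : G, zpowers y = zpowers (g * x * g⁻¹) := by
  obtain ⟨g, hg⟩ := hC (zpowers x) (zpowers y) (by rw [Nat.card_zpowers, Nat.card_zpowers, h])
  refine ⟨g, ?_⟩
  rw [hg, MonoidHom.map_zpowers]
  rfl

theorem IsConjAll.conj_invol {s t : G} (hs : orderOf s = 2) (ht : orderOf t = 2) :
    ∃ g : G, g * s * g⁻¹ = t := by
  obtain ⟨g, hg⟩ := hC.exists_zpowers (hs.trans ht.symm)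
  refine ⟨g, ?_⟩
  have hm : t ∈ zpowers (g * s * g⁻¹) := hg ▸ mem_zpowers t
  obtain ⟨i, hi⟩ := mem_zpowers_iff.1 hm
  have ho : orderOf (g * s * g⁻¹) = 2 := (MulEquiv.orderOf_eq (MulAut.conj g) s).trans hs
  rw [← zpow_mod_orderOf, ho] at hi
  rcases Int.emod_two_eq_zero_or_one i with h | h <;> rw [Nat.cast_ofNat, h] at hi
  · rw [zpow_zero] at hi; rw [← hi, orderOf_one] at ht; omega
  · rwa [zpow_one] at hi

/-- If an odd prime divides the order of an involution centraliser, then no involution inverts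
an element of that prime order. -/
theorem IsConjAll.no_invert {p : ℕ} (hp : p.Prime) (hp2 : p ≠ 2) {t : G} (ht : orderOf t = 2)
    (hdvd : p ∣ Nat.card (centralizer ({t} : Set G))) {u y : G} (hu : orderOf u = 2)
    (hy : orderOf y = p) : u * y * u⁻¹ ≠ y⁻¹ := by
  intro hinv
  haveI : Fact p.Prime := ⟨hp⟩
  obtain ⟨⟨z, hz⟩, hzo⟩ := exists_prime_orderOf_dvd_card' p hdvd
  rw [Subgroup.orderOf_mk] at hzo
  have hc : Commute t z := (mem_centralizer_singleton_iff.1 hz).symm
  have hcop : Nat.Coprime 2 p :=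
    Nat.Coprime.symm ((Nat.coprime_primes hp Nat.prime_two).2 hp2)
  have ho : orderOf (t * z) = 2 * p := by
    rw [hc.orderOf_mul_eq_mul_orderOf_of_coprime (by rw [ht, hzo]; exact hcop), ht, hzo]
  have hn : zpowers u ≤ normalizer ((zpowers y : Subgroup G) : Set G) := by
    rw [zpowers_le, mem_normalizer_iff]
    have key : ∀ h ∈ zpowers y, u * h * u⁻¹ ∈ zpowers y := by
      intro h hh
      obtain ⟨i, rfl⟩ := mem_zpowers_iff.1 hh
      rw [← conj_zpow, hinv]
      exact zpow_mem (inv_mem (mem_zpowers y)) i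
    have hu2 : u⁻¹ = u := inv_eq_of_mul_eq_one_left (by
      have := pow_orderOf_eq_one u; rwa [hu, pow_two] at this)
    intro h
    refine ⟨key h, fun hh => ?_⟩
    have := key _ hh
    rwa [hu2, show u * (u * h * u) * u = (u * u) * h * (u * u) by group,
      mul_eq_one_iff_eq_inv.2 hu2.symm, one_mul, mul_one] at this
  set K := zpowers u ⊔ zpowers y
  have hle : Nat.card K ≤ 2 * p := by
    have h1 : Nat.card (zpowers u × zpowers y) = 2 * p := by
      rw [Nat.card_prod, Nat.card_zpowers, Nat.card_zpowers, hu, hy]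
    rw [← h1]
    refine Nat.card_le_card_of_surjective
      (fun x => (⟨(x.1 : G) * x.2, mul_mem_sup x.1.2 x.2.2⟩ : K)) ?_
    rintro ⟨x, hx⟩
    change x ∈ ((zpowers u ⊔ zpowers y : Subgroup G) : Set G) at hx
    rw [Subgroup.coe_mul_of_left_le_normalizer_right _ _ hn] at hx
    obtain ⟨a, ha, b, hb, rfl⟩ := hx
    exact ⟨(⟨a, ha⟩, ⟨b, hb⟩), rfl⟩
  have hdvdK : 2 * p ∣ Nat.card K := by
    refine Nat.Coprime.mul_dvd_of_dvd_of_dvd hcop ?_ ?_
    · rw [← hu]; exact Subgroup.orderOf_dvd_natCard _ (mem_sup_left (mem_zpowers u))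
    · rw [← hy]; exact Subgroup.orderOf_dvd_natCard _ (mem_sup_right (mem_zpowers y))
  have hcard : Nat.card K = 2 * p := le_antisymm hle (Nat.le_of_dvd Nat.card_pos hdvdK)
  obtain ⟨g, hg⟩ := hC (zpowers (t * z)) K (by rw [Nat.card_zpowers, ho, hcard])
  rw [MonoidHom.map_zpowers] at hg
  have hu' : u ∈ zpowers ((MulAut.conj g).toMonoidHom (t * z)) :=
    hg ▸ mem_sup_left (mem_zpowers u)
  have hy' : y ∈ zpowers ((MulAut.conj g).toMonoidHom (t * z)) :=
    hg ▸ mem_sup_right (mem_zpowers y)
  obtain ⟨i, rfl⟩ := mem_zpowers_iff.1 hu'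
  obtain ⟨j, rfl⟩ := mem_zpowers_iff.1 hy'
  rw [(Commute.zpow_zpow_self _ i j).eq, mul_inv_cancel_right] at hinv
  have h2 := orderOf_dvd_of_pow_eq_one (x := ((MulAut.conj g).toMonoidHom (t * z)) ^ j) (n := 2)
    (by rw [pow_two]; exact mul_eq_one_iff_eq_inv.2 hinv)
  rw [hy] at h2
  exact hp2 ((Nat.prime_dvd_prime_iff_eq hp Nat.prime_two).1 h2)

omit hC in
/-- A normal subgroup with a Burnside-type Sylow 2-subgroup: its complement lies in the odd core. -/
theorem card_dvd_of_transfer (M : Subgroup G) [M.Normal]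
    (P : Sylow 2 M) (hP : normalizer ((P : Subgroup M) : Set M) ≤
      centralizer ((P : Subgroup M) : Set M)) :
    Nat.card M ∣ Nat.card (Cfsg.oddCore G) * Nat.card P := by
  haveI : Fact (Nat.Prime 2) := ⟨Nat.prime_two⟩
  set K := (MonoidHom.transferSylow P hP).ker with hK
  have hc : IsComplement' K (P : Subgroup M) := MonoidHom.ker_transferSylow_isComplement' P hP
  have hKodd : (Nat.card K).Coprime 2 := by
    have h : ¬ 2 ∣ Nat.card K := MonoidHom.not_dvd_card_ker_transferSylow P hP
    exact (Nat.prime_two.coprime_iff_not_dvd.2 h).symm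
  have hmem : ∀ x : M, (orderOf x).Coprime 2 → x ∈ K := by
    intro x hx
    rw [hK, MonoidHom.mem_ker]
    obtain ⟨k, hk⟩ := P.2 (MonoidHom.transferSylow P hP x)
    refine orderOf_eq_one_iff.1 (Nat.Coprime.eq_one_of_dvd ?_ (orderOf_dvd_of_pow_eq_one hk))
    exact Nat.Coprime.pow_right k (hx.coprime_dvd_left (orderOf_map_dvd _ x))
  have hn : (K.map M.subtype).Normal := by
    refine ⟨?_⟩
    rintro _ ⟨x, hx, rfl⟩ g
    refine ⟨⟨g * (x : G) * g⁻¹, ‹M.Normal›.conj_mem _ x.2 g⟩, hmem _ ?_, rfl⟩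
    rw [← Subgroup.orderOf_coe]
    have e : orderOf (g * (x : G) * g⁻¹) = orderOf (x : G) := MulEquiv.orderOf_eq (MulAut.conj g) _
    show (orderOf (g * (x : G) * g⁻¹)).Coprime 2
    rw [e, Subgroup.orderOf_coe]
    exact hKodd.coprime_dvd_left (Subgroup.orderOf_dvd_natCard _ hx)
  have hle : K.map M.subtype ≤ Cfsg.oddCore G := PSolv.le_pPrimeCore hn (by
    rw [Subgroup.card_map_of_injective M.subtype_injective]; exact hKodd)
  rw [← hc.card_mul]
  refine Nat.mul_dvd_mul_right ?_ _
  have h' := Subgroup.card_dvd_of_le hle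
  rwa [Subgroup.card_map_of_injective M.subtype_injective] at h'

omit hC in
/-- A normal subgroup with central Sylow 2-subgroup is a 2-group if the odd core is trivial. -/
theorem isPGroup_two_of_transfer (hO : Cfsg.oddCore G = ⊥) (M : Subgroup G) [M.Normal]
    (P : Sylow 2 M) (hP : normalizer ((P : Subgroup M) : Set M) ≤
      centralizer ((P : Subgroup M) : Set M)) : (P : Subgroup M) = ⊤ := by
  have h := card_dvd_of_transfer M P hP
  rw [hO, Subgroup.card_bot, one_mul] at h
  exact Subgroup.eq_top_of_card_eq _ (Nat.dvd_antisymm (Subgroup.card_subgroup_dvd_card _) h)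

omit hC in
theorem isPGroup_two_of_central (hO : Cfsg.oddCore G = ⊥) (M : Subgroup G) [M.Normal]
    (P : Sylow 2 M) (hP : (P : Subgroup M) ≤ center M) : (P : Subgroup M) = ⊤ :=
  isPGroup_two_of_transfer hO M P fun _ _ => mem_centralizer_iff.2 fun _ hy =>
    (mem_center_iff.1 (hP hy) _).symm

omit hC in
theorem cyclic_case (hO : Cfsg.oddCore G = ⊥) (S : Sylow 2 G) (h : IsCyclic (S : Subgroup G)) :
    IsCyclic G ∧ IsPGroup 2 G := by
  haveI : Fact (Nat.Prime 2) := ⟨Nat.prime_two⟩
  by_cases h2 : 2 ∣ Nat.card G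
  · have hmin : (Nat.card G).minFac = 2 := (Nat.minFac_eq_two_iff _).2 h2
    have hn := h.normalizer_le_centralizer hmin
    set K := (MonoidHom.transferSylow S hn).ker
    have hc : IsComplement' K (S : Subgroup G) := MonoidHom.ker_transferSylow_isComplement' S hn
    have hbot : K = ⊥ := eq_bot_iff.2 (hO ▸ PSolv.le_pPrimeCore (MonoidHom.normal_ker _)
      (Nat.prime_two.coprime_iff_not_dvd.2 (MonoidHom.not_dvd_card_ker_transferSylow S hn)).symm)
    rw [hbot] at hc
    have htop : (S : Subgroup G) = ⊤ := Subgroup.isComplement'_bot_left.1 hc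
    refine ⟨?_, ?_⟩
    · haveI := h
      rw [htop] at this
      exact Subgroup.topEquiv.isCyclic.1 this
    · have h3 := S.2
      rw [htop] at h3
      exact h3.of_equiv Subgroup.topEquiv
  · have htop : (⊤ : Subgroup G) ≤ Cfsg.oddCore G :=
      PSolv.le_pPrimeCore inferInstance (by
        rw [Subgroup.card_top]; exact (Nat.prime_two.coprime_iff_not_dvd.2 h2).symm)
    rw [hO] at htop
    haveI : Subsingleton G := ⟨fun a b => by
      rw [Subgroup.mem_bot.1 (htop (mem_top a)), Subgroup.mem_bot.1 (htop (mem_top b))]⟩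
    exact ⟨isCyclic_of_subsingleton, fun g => ⟨0, Subsingleton.elim _ _⟩⟩

end Cfsg.Agent.ConjAll
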