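import Cfsg.Agent.ConjAll.Block

/-!
Pairs of involutions with derangement product, and the resulting tori of order `q + 1`.
-/

set_option autoImplicit false
set_option linter.style.haveILetI false
set_option linter.unusedSectionVars false

namespace Cfsg.Agent.ConjAll

open Subgroup MulAction

variable {G : Type*} [Group G] [Finite G] (C : Ctx G)

/-- Fixed point free elements. -/
def Der (w : G) : Prop := ∀ z : Sylow 2 G, w • z ≠ z

/-- `t` is an involution inverting the derangement `w`. -/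
def Inverts (t w : G) : Prop := t * t = 1 ∧ t ≠ 1 ∧ Der w ∧ t * w * t⁻¹ = w⁻¹

/-- A pair of involutions with distinct centres in the set `S`. -/
def InvPair (S : Set (Sylow 2 G)) (p : G × G) : Prop :=
  p.1 ≠ 1 ∧ p.2 ≠ 1 ∧ ∃ z z' : Sylow 2 G, z ∈ S ∧ z' ∈ S ∧ z ≠ z' ∧ p.1 ∈ z ∧ p.2 ∈ z'

include C

theorem Ctx.odd_centralizer_der {w : G} (hw : Der w) :
    Odd (Nat.card (centralizer ({w} : Set G))) := by
  rw [← Nat.not_even_iff_odd]
  intro he
  haveI : Fact (Nat.Prime 2) := ⟨Nat.prime_two⟩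
  obtain ⟨g, hg⟩ := exists_prime_orderOf_dvd_card' 2 (even_iff_two_dvd.1 he)
  replace hg : orderOf (g : G) = 2 := (Subgroup.orderOf_coe g).trans hg
  have hg2 : (g : G) * g = 1 := by
    have := pow_orderOf_eq_one (g : G)
    rwa [hg, pow_two] at this
  obtain ⟨c, hc⟩ := C.exists_centre hg2
  have hne : (g : G) ≠ 1 := fun h => by rw [h, orderOf_one] at hg; omega
  refine hw c (C.eq_of_fix hc hne ?_)
  rw [smul_smul, mem_centralizer_singleton_iff.1 g.2, mul_smul,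
    smul_eq_iff.2 (C.CS_le_NS c (C.le_CS c hc))]

theorem Ctx.Inverts.odd_order {t w : G} (h : Inverts t w) : Odd (orderOf w) :=
  (C.odd_centralizer_der h.2.2.1).of_dvd_nat
    (Subgroup.orderOf_dvd_natCard _ (mem_centralizer_singleton_iff.2 rfl))

theorem Ctx.Inverts.coprime {t w : G} (h : Inverts t w) (c : Sylow 2 G) :
    (orderOf w).Coprime (Nat.card (CS c)) :=
  C.coprime_of_inverts (orderOf_eq_prime (by rw [pow_two]; exact h.1) h.2.1)
    (Ctx.Inverts.odd_order C h) h.2.2.2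

theorem Ctx.Inverts.centres {t w : G} (h : Inverts t w) :
    ∃ c c' : Sylow 2 G, c ≠ c' ∧ t ∈ c ∧ t * w ∈ c' ∧ t * w ≠ 1 ∧
      centralizer ({w} : Set G) ⊓ centralizer ({t} : Set G) = EP c c' := by
  obtain ⟨ht, ht1, hw, hinv⟩ := h
  have hv := sq_one_of_inverts ht hinv
  obtain ⟨c, hc⟩ := C.exists_centre ht
  obtain ⟨c', hc'⟩ := C.exists_centre hv
  have hfix : t • c = c := smul_eq_iff.2 (C.CS_le_NS c (C.le_CS c hc))
  have hv1 : t * w ≠ 1 := fun h1 => hw c (by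
    rw [show w = t⁻¹ from eq_inv_of_mul_eq_one_right h1, conj_sq_self ht]; exact hfix)
  have hne : c ≠ c' := fun hcc => hw c (by
    rw [← hcc] at hc'
    calc w • c = (t * (t * w)) • c := by rw [← mul_assoc, ht, one_mul]
      _ = c := by rw [mul_smul t (t * w), smul_eq_iff.2 (C.CS_le_NS c (C.le_CS c hc')), hfix])
  refine ⟨c, c', hne, hc, hc', hv1, le_antisymm (fun g hg => ?_) (fun g hg => ?_)⟩
  · refine ⟨C.hC c t hc ht1 ▸ hg.2, ?_⟩
    rw [← C.hC c' _ hc' hv1]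
    have h1 := mem_centralizer_singleton_iff.1 hg.2
    have h2 := mem_centralizer_singleton_iff.1 hg.1
    exact mem_centralizer_singleton_iff.2 (by rw [← mul_assoc, h1, mul_assoc, h2, mul_assoc])
  · obtain ⟨hgc, hgc'⟩ := hg
    have ht' : g ∈ centralizer ({t} : Set G) := C.hC c t hc ht1 ▸ hgc
    have hv' : g ∈ centralizer ({t * w} : Set G) := C.hC c' _ hc' hv1 ▸ hgc'
    refine ⟨?_, ht'⟩
    have h1 := mem_centralizer_singleton_iff.1 ht'
    have h2 := mem_centralizer_singleton_iff.1 hv'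
    refine mem_centralizer_singleton_iff.2 ?_
    calc g * w = t⁻¹ * ((t * g) * w) := by group
      _ = t⁻¹ * ((g * t) * w) := by rw [h1]
      _ = t⁻¹ * (g * (t * w)) := by group
      _ = t⁻¹ * ((t * w) * g) := by rw [h2]
      _ = w * g := by group

/-- A product of two involutions with distinct centres fixing a point. -/
theorem Ctx.pair_fix {t v : G} {c c' z : Sylow 2 G} (hne : c ≠ c') (hc : t ∈ c) (hc' : v ∈ c')
    (ht1 : t ≠ 1) (hv1 : v ≠ 1) (hz : (t * v) • z = z) :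
    z ≠ t • z ∧ v • z = t • z ∧ EP c c' = EP z (t • z) ∧ orderOf (t * v) = C.q - 1 := by
  have ht := C.hel c t hc
  have hv := C.hel c' v hc'
  have hvz : v • z = t • z := by
    conv_rhs => rw [← hz, smul_smul, ← mul_assoc, ht, one_mul]
  have hzz : z ≠ t • z := fun h => by
    have h1 := C.eq_of_fix hc ht1 h.symm
    have h2 := C.eq_of_fix hc' hv1 (hvz.trans h.symm)
    exact hne (h1.symm.trans h2)
  have hD : t * v ∈ DP z (t • z) := by
    refine ⟨smul_eq_iff.1 hz, smul_eq_iff.1 ?_⟩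
    rw [mul_smul, C.swap_smul hv hvz]
  have hinv := inverts_of_sq_one ht hv
  have hne1 : t * v ≠ 1 := fun h => hne (C.eq_of_mem hc (by
    rw [show t = v⁻¹ from eq_inv_of_mul_eq_one_left h, conj_sq_self hv]; exact hc') ht1)
  have ho := C.odd_of_fix_two hzz hD.1 hD.2
  have hm : (t * v) ^ (C.q - 1) = 1 :=
    C.eq_one_of_inverts_mem (C.invol_order hc ht1) (ho.of_dvd_nat (orderOf_pow_dvd _))
      (pow_inverts hinv _) (C.pow_m_mem hD.1)
  haveI : Fact (C.q - 1).Prime := ⟨C.m_prime⟩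
  have hord : orderOf (t * v) = C.q - 1 := orderOf_eq_prime hm hne1
  refine ⟨hzz, hvz, ?_, hord⟩
  have hle : EP c c' ≤ DP z (t • z) := by
    intro g hg
    refine C.centralizer_m_le hord hzz hD.1 hD.2 (mem_centralizer_singleton_iff.2 ?_)
    have h1 : g ∈ centralizer ({t} : Set G) := C.hC c t hc ht1 ▸ hg.1
    have h2 : g ∈ centralizer ({v} : Set G) := C.hC c' v hc' hv1 ▸ hg.2
    exact ((show Commute g t from mem_centralizer_singleton_iff.1 h1).mul_right
      (show Commute g v from mem_centralizer_singleton_iff.1 h2)).eq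
  exact C.EP_eq_of_fix hne hzz (hle.trans inf_le_left) (hle.trans inf_le_right)

theorem Ctx.card_offdiag (S : Set (Sylow 2 G)) :
    Nat.card {z : S × S // z.1 ≠ z.2} = Nat.card S * (Nat.card S - 1) := by
  classical
  haveI := Fintype.ofFinite S
  rw [Nat.card_congr (⟨fun z => ⟨z.1.1, z.1.2, Ne.symm z.2⟩,
    fun z => ⟨(z.1, z.2.1), Ne.symm z.2.2⟩, fun _ => rfl, fun _ => rfl⟩ :
    {z : S × S // z.1 ≠ z.2} ≃ Σ a : S, {b : S // b ≠ a})]
  rw [Nat.card_sigma]
  simp only [card_ne, Finset.sum_const, Finset.card_univ, smul_eq_mul]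
  rw [← Nat.card_eq_fintype_card]

/-- At least about half of the pairs of involutions have derangement product. -/
theorem Ctx.good_pairs_le (S : Set (Sylow 2 G))
    (hS : ∀ (t v : G) (c c' z : Sylow 2 G), c ∈ S → c' ∈ S → c ≠ c' → t ∈ c → v ∈ c' → t ≠ 1 →
      v ≠ 1 → (t * v) • z = z → z ∈ S) :
    Nat.card S * (Nat.card S - 1) * ((C.q - 1) * C.q) ≤
      2 * Nat.card {p : G × G // InvPair S p ∧ Der (p.1 * p.2)} := by
  classical
  haveI := Fintype.ofFinite G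
  haveI := Fintype.ofFinite {z : S × S // z.1 ≠ z.2}
  have hall : Nat.card {p : G × G // InvPair S p} =
      Nat.card S * (Nat.card S - 1) * ((C.q - 1) * (C.q - 1)) := by
    let e : (Σ z : {z : S × S // z.1 ≠ z.2}, {x : (z.1.1.1 : Subgroup G) // x ≠ 1} ×
        {x : (z.1.2.1 : Subgroup G) // x ≠ 1}) → {p : G × G // InvPair S p} := fun z =>
      ⟨((z.2.1.1 : G), (z.2.2.1 : G)), fun h => z.2.1.2 (Subtype.ext h),
        fun h => z.2.2.2 (Subtype.ext h), z.1.1.1.1, z.1.1.2.1, z.1.1.1.2, z.1.1.2.2,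
        fun h => z.1.2 (Subtype.ext h), z.2.1.1.2, z.2.2.1.2⟩
    have he : Function.Bijective e := by
      constructor
      · rintro ⟨⟨⟨⟨z, hz⟩, ⟨z', hz'⟩⟩, hne⟩, ⟨⟨x, hx⟩, hx1⟩, ⟨⟨y, hy⟩, hy1⟩⟩
          ⟨⟨⟨⟨w, hw⟩, ⟨w', hw'⟩⟩, hne2⟩, ⟨⟨x', hx'⟩, hx1'⟩, ⟨⟨y', hy'⟩, hy1'⟩⟩ h
        have h1 := congrArg (fun p => p.1.1) h
        have h2 := congrArg (fun p => p.1.2) h
        change x = x' at h1
        change y = y' at h2
        subst h1 h2
        obtain rfl := C.eq_of_mem hx hx' (fun h => hx1 (Subtype.ext h))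
        obtain rfl := C.eq_of_mem hy hy' (fun h => hy1 (Subtype.ext h))
        rfl
      · rintro ⟨⟨x, y⟩, hx1, hy1, z, z', hz, hz', hne, hx, hy⟩
        exact ⟨⟨⟨(⟨z, hz⟩, ⟨z', hz'⟩), fun h => hne (congrArg Subtype.val h)⟩,
          ⟨⟨x, hx⟩, fun h => hx1 (congrArg Subtype.val h)⟩,
          ⟨⟨y, hy⟩, fun h => hy1 (congrArg Subtype.val h)⟩⟩, rfl⟩
    rw [← Nat.card_eq_of_bijective e he, Nat.card_sigma]
    simp only [Nat.card_prod, card_ne, C.hcard, Finset.sum_const, Finset.card_univ, smul_eq_mul]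
    rw [← Nat.card_eq_fintype_card, C.card_offdiag]
  have hsplit : Nat.card {p : G × G // InvPair S p} =
      Nat.card {p : G × G // InvPair S p ∧ Der (p.1 * p.2)} +
      Nat.card {p : G × G // InvPair S p ∧ ¬ Der (p.1 * p.2)} := by
    simp only [Nat.card_eq_fintype_card, Fintype.card_subtype]
    rw [← Finset.filter_filter, ← Finset.filter_filter, Finset.card_filter_add_card_filter_not]
  -- the quadruples
  let Sw : Sylow 2 G → Sylow 2 G → Type _ := fun z z' => {u : G // u * u = 1 ∧ u ≠ 1 ∧ u • z = z'}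
  let Quad := Σ z : {z : S × S // z.1 ≠ z.2}, Σ t : Sw z.1.1.1 z.1.2.1,
    {v : Sw z.1.1.1 z.1.2.1 // v ≠ t}
  have hquad : Nat.card Quad = Nat.card S * (Nat.card S - 1) * ((C.q - 1) * (C.q - 1 - 1)) := by
    rw [Nat.card_sigma]
    have : ∀ z : {z : S × S // z.1 ≠ z.2}, Nat.card (Σ t : Sw z.1.1.1 z.1.2.1,
        {v : Sw z.1.1.1 z.1.2.1 // v ≠ t}) = (C.q - 1) * (C.q - 1 - 1) := fun z => by
      haveI := Fintype.ofFinite (Sw z.1.1.1 z.1.2.1)
      have h := C.card_swappers z.1.1.1 z.1.2.1 (fun h => z.2 (Subtype.ext h))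
      rw [Nat.card_sigma]
      simp only [card_ne, Finset.sum_const, Finset.card_univ, smul_eq_mul]
      rw [← Nat.card_eq_fintype_card, h]
    simp only [this, Finset.sum_const, Finset.card_univ, smul_eq_mul]
    rw [← Nat.card_eq_fintype_card, C.card_offdiag]
  have hchoose : ∀ p : {p : G × G // InvPair S p ∧ ¬ Der (p.1 * p.2)}, ∃ z : Sylow 2 G,
      z ∈ S ∧ p.1.1 • z ∈ S ∧ z ≠ p.1.1 • z ∧ p.1.1 * p.1.1 = 1 ∧ p.1.2 * p.1.2 = 1 ∧
        p.1.2 • z = p.1.1 • z ∧ p.1.1 ≠ p.1.2 := by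
    rintro ⟨⟨t, v⟩, ⟨ht1, hv1, c, c', hcS, hc'S, hne, hc, hc'⟩, hder⟩
    unfold Der at hder
    push Not at hder
    obtain ⟨z, hz⟩ := hder
    obtain ⟨hzz, hvz, -, -⟩ := C.pair_fix hne hc hc' ht1 hv1 hz
    refine ⟨z, hS t v c c' z hcS hc'S hne hc hc' ht1 hv1 hz, ?_, hzz, C.hel c t hc, C.hel c' v hc',
      hvz, fun h => hne (C.eq_of_mem hc (by rw [show t = v from h]; exact hc') ht1)⟩
    refine hS t v c c' _ hcS hc'S hne hc hc' ht1 hv1 ?_
    rw [mul_smul, C.swap_smul (C.hel c' v hc') hvz]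
  choose zf hzf using hchoose
  let F : {p : G × G // InvPair S p ∧ ¬ Der (p.1 * p.2)} × Bool → Quad := fun pb =>
    match pb with
    | (p, true) => ⟨⟨(⟨zf p, (hzf p).1⟩, ⟨p.1.1 • zf p, (hzf p).2.1⟩),
          fun h => (hzf p).2.2.1 (congrArg Subtype.val h)⟩,
        ⟨p.1.1, (hzf p).2.2.2.1, p.2.1.1, rfl⟩,
        ⟨⟨p.1.2, (hzf p).2.2.2.2.1, p.2.1.2.1, (hzf p).2.2.2.2.2.1⟩,
          fun h => (hzf p).2.2.2.2.2.2 (congrArg Subtype.val h).symm⟩⟩
    | (p, false) => ⟨⟨(⟨p.1.1 • zf p, (hzf p).2.1⟩, ⟨zf p, (hzf p).1⟩),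
          fun h => (hzf p).2.2.1 (congrArg Subtype.val h).symm⟩,
        ⟨p.1.1, (hzf p).2.2.2.1, p.2.1.1, by
          show p.1.1 • p.1.1 • zf p = zf p
          rw [smul_smul, (hzf p).2.2.2.1, one_smul]⟩,
        ⟨⟨p.1.2, (hzf p).2.2.2.2.1, p.2.1.2.1, C.swap_smul (hzf p).2.2.2.2.1
            (hzf p).2.2.2.2.2.1⟩,
          fun h => (hzf p).2.2.2.2.2.2 (congrArg Subtype.val h).symm⟩⟩
  have hF : Function.Injective F := by
    rintro ⟨p, b⟩ ⟨p', b'⟩ h
    have h1 : p.1.1 = p'.1.1 := by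
      have := congrArg (fun x : Quad => x.2.1.1) h
      cases b <;> cases b' <;> exact this
    have h2 : p.1.2 = p'.1.2 := by
      have := congrArg (fun x : Quad => x.2.2.1.1) h
      cases b <;> cases b' <;> exact this
    obtain rfl : p = p' := Subtype.ext (Prod.ext h1 h2)
    refine Prod.ext rfl ?_
    have h3 := congrArg (fun x : Quad => x.1.1.1.1) h
    cases b <;> cases b'
    · rfl
    · exact absurd h3 (hzf p).2.2.1.symm
    · exact absurd h3 (hzf p).2.2.1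
    · rfl
  have hbad := Nat.card_le_card_of_injective F hF
  rw [Nat.card_prod, hquad, Nat.card_eq_fintype_card (α := Bool), Fintype.card_bool] at hbad
  rw [hsplit] at hall
  generalize Nat.card S * (Nat.card S - 1) = N at hbad hall ⊢
  obtain ⟨m, hm⟩ : ∃ m, C.q = m + 2 := ⟨C.q - 2, by have := C.q_pos; omega⟩
  rw [hm] at hbad hall ⊢
  simp only [show m + 2 - 1 = m + 1 from rfl, show m + 1 - 1 = m from rfl] at hbad hall ⊢
  nlinarith [hbad, hall]

/-- Counting derangements in the normaliser of a block. -/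
theorem Ctx.block_der_le {a b : Sylow 2 G} (hab : a ≠ b) :
    2 * Nat.card {g : MP a b // ∀ z : Blk a b, g • z ≠ z} ≤
      Nat.card (EP a b) * (C.q * (C.q * (C.q - 1))) := by
  classical
  obtain ⟨hφ, -, -⟩ := C.block hab
  haveI := Fintype.ofFinite (MP a b)
  haveI := Fintype.ofFinite (Blk a b)
  haveI : Nonempty (Blk a b) := ⟨⟨a, le_trans (C.EP_le_DP a b) inf_le_left⟩⟩
  haveI : IsPretransitive (MP a b) (Blk a b) := ⟨fun z w => by
    obtain ⟨z', hz'⟩ : ∃ z' : Blk a b, z' ≠ z := Fintype.exists_ne_of_one_lt_card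
      (by rw [← Nat.card_eq_fintype_card, hφ]; have := C.q_pos; omega) z
    obtain ⟨w', hw'⟩ : ∃ w' : Blk a b, w' ≠ w := Fintype.exists_ne_of_one_lt_card
      (by rw [← Nat.card_eq_fintype_card, hφ]; have := C.q_pos; omega) w
    have h1 : z.1 ≠ z'.1 := fun h => hz' (Subtype.ext h.symm)
    have h2 : w.1 ≠ w'.1 := fun h => hw' (Subtype.ext h.symm)
    obtain ⟨g, hg, hg'⟩ := C.exists_smul_pair h1 h2
    exact ⟨⟨g, C.mem_MP_of_smul (C.blk_eq hab h1 z.2 z'.2) (C.blk_eq hab h2 w.2 w'.2) hg hg'⟩,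
      Subtype.ext hg⟩⟩
  let P := {p : Blk a b × Blk a b // p.1 ≠ p.2}
  haveI := Fintype.ofFinite P
  let W : MP a b → ℕ := fun g => (if (g : G) ∈ EP a b then 2 * C.q else 0) +
    Nat.card {p : P // (g : G) ∉ EP a b ∧ g • p.1.1 = p.1.1 ∧ g • p.1.2 = p.1.2}
  have hW : ∀ g : MP a b, 2 * (Nat.card (fixedBy (Blk a b) g) - 1) ≤ W g := by
    intro g
    by_cases hg : (g : G) ∈ EP a b
    · refine le_trans ?_ (Nat.le_add_right _ _)
      rw [if_pos hg]
      have : Nat.card (fixedBy (Blk a b) g) ≤ C.q + 1 := by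
        rw [← hφ]; exact Nat.card_le_card_of_injective _ Subtype.val_injective
      omega
    · refine le_trans ?_ (Nat.le_add_left _ _)
      rw [Nat.card_congr (⟨fun p => ⟨⟨(⟨p.1.1.1, p.2.2.1⟩, ⟨p.1.1.2, p.2.2.2⟩), fun h =>
            p.1.2 (congrArg Subtype.val h)⟩, trivial⟩,
          fun p => ⟨⟨(p.1.1.1.1, p.1.1.2.1), fun h => p.1.2 (Subtype.ext h)⟩, hg, p.1.1.1.2,
            p.1.1.2.2⟩, fun _ => rfl, fun _ => rfl⟩ :
        {p : P // (g : G) ∉ EP a b ∧ g • p.1.1 = p.1.1 ∧ g • p.1.2 = p.1.2} ≃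
        {p : {p : fixedBy (Blk a b) g × fixedBy (Blk a b) g // p.1 ≠ p.2} // True})]
      rw [Nat.card_congr (Equiv.subtypeUnivEquiv (fun _ => trivial))]
      haveI := Fintype.ofFinite (fixedBy (Blk a b) g)
      rw [Nat.card_congr (⟨fun z => ⟨z.1.1, z.1.2, Ne.symm z.2⟩,
        fun z => ⟨(z.1, z.2.1), Ne.symm z.2.2⟩, fun _ => rfl, fun _ => rfl⟩ :
        {p : fixedBy (Blk a b) g × fixedBy (Blk a b) g // p.1 ≠ p.2} ≃
          Σ z : fixedBy (Blk a b) g, {z' : fixedBy (Blk a b) g // z' ≠ z})]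
      rw [Nat.card_sigma]
      simp only [card_ne, Finset.sum_const, Finset.card_univ, smul_eq_mul]
      rw [← Nat.card_eq_fintype_card]
      rcases Nat.lt_or_ge (Nat.card (fixedBy (Blk a b) g)) 2 with h | h
      · omega
      · exact Nat.mul_le_mul_right _ h
  refine (mul_card_derangement_le 2 W hW).trans (le_of_eq ?_)
  simp only [W, Finset.sum_add_distrib]
  have hs1 : ∑ g : MP a b, (if (g : G) ∈ EP a b then 2 * C.q else 0) =
      Nat.card (EP a b) * (2 * C.q) := by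
    rw [← Finset.sum_filter, Finset.sum_const, smul_eq_mul, ← Fintype.card_subtype,
      ← Nat.card_eq_fintype_card]
    congr 1
    exact Nat.card_congr ⟨fun g => ⟨g.1.1, g.2⟩, fun g => ⟨⟨g.1, le_normalizer g.2⟩, g.2⟩,
      fun _ => rfl, fun _ => rfl⟩
  have hp : ∀ p : P, Nat.card {g : MP a b //
      (g : G) ∉ EP a b ∧ g • p.1.1 = p.1.1 ∧ g • p.1.2 = p.1.2} =
      (C.q - 1 - 1) * Nat.card (EP a b) := by
    intro p
    have hne : p.1.1.1 ≠ p.1.2.1 := fun h => p.2 (Subtype.ext h)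
    have he := C.blk_eq hab hne p.1.1.2 p.1.2.2
    have hle : DP p.1.1.1 p.1.2.1 ≤ MP a b := fun g hg =>
      C.mem_MP_of_smul he he (smul_eq_iff.2 hg.1) (smul_eq_iff.2 hg.2)
    rw [← he, Nat.sub_mul, one_mul, ← C.card_DP hne]
    rw [Nat.card_congr (⟨fun g => ⟨⟨g.1.1, smul_eq_iff.1 (congrArg Subtype.val g.2.2.1),
          smul_eq_iff.1 (congrArg Subtype.val g.2.2.2)⟩, g.2.1⟩,
        fun g => ⟨⟨g.1.1, hle g.1.2⟩, g.2, Subtype.ext (smul_eq_iff.2 g.1.2.1),
          Subtype.ext (smul_eq_iff.2 g.1.2.2)⟩, fun _ => rfl, fun _ => rfl⟩ :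
      {g : MP a b // (g : G) ∉ EP p.1.1.1 p.1.2.1 ∧ g • p.1.1 = p.1.1 ∧ g • p.1.2 = p.1.2} ≃
      {g : DP p.1.1.1 p.1.2.1 // (g : G) ∉ EP p.1.1.1 p.1.2.1})]
    haveI := Fintype.ofFinite (DP p.1.1.1 p.1.2.1)
    rw [Nat.card_eq_fintype_card, Fintype.card_subtype_compl, ← Nat.card_eq_fintype_card,
      ← Nat.card_eq_fintype_card]
    congr 1
    exact Nat.card_congr ⟨fun g => ⟨g.1.1, g.2⟩, fun g => ⟨⟨g.1, C.EP_le_DP _ _ g.2⟩, g.2⟩,
      fun _ => rfl, fun _ => rfl⟩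
  rw [hs1, sum_sum_comm_card, Finset.sum_congr rfl (fun p _ => hp p), Finset.sum_const,
    Finset.card_univ, smul_eq_mul, ← Nat.card_eq_fintype_card]
  have hP : Nat.card P = (C.q + 1) * C.q := by
    rw [Nat.card_congr (⟨fun z => ⟨z.1.1, z.1.2, Ne.symm z.2⟩,
      fun z => ⟨(z.1, z.2.1), Ne.symm z.2.2⟩, fun _ => rfl, fun _ => rfl⟩ :
      P ≃ Σ z : Blk a b, {z' : Blk a b // z' ≠ z}), Nat.card_sigma]
    simp only [card_ne, Finset.sum_const, Finset.card_univ, smul_eq_mul]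
    rw [← Nat.card_eq_fintype_card, hφ, Nat.add_sub_cancel]
  rw [hP]
  obtain ⟨m, hm⟩ : ∃ m, C.q = m + 2 := ⟨C.q - 2, by have := C.q_pos; omega⟩
  rw [hm, show m + 2 - 1 = m + 1 from rfl, show m + 1 - 1 = m from rfl]
  ring

end Cfsg.Agent.ConjAll
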